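import Mathlib

/-!
# A regular vector for p-groups of class two (helper78)

`exists_regular`: `p` odd, `Q` a `p`-group of class at most two acting faithfully on the abelian group `W ≠ 0`
without `p`-torsion, the nontrivial central elements of `Q` being fixed point free; then some vector of `W` has
trivial stabilizer in `Q`.
-/

set_option autoImplicit false
set_option linter.unusedSectionVars false

namespace Cfsg.Agent.BSV

open Finset
open scoped commutatorElement

universe u

section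

variable {Q W : Type*} [Group Q] [AddCommGroup W] [DistribMulAction Q W]

/-- the sum of the first `p` powers. -/
def T (p : ℕ) (x : Q) (w : W) : W := ∑ k ∈ range p, x ^ k • w

theorem T_fixed {p : ℕ} {x : Q} {w : W} (h : x ^ p • w = w) : x • T p x w = T p x w := by
  unfold T
  rw [smul_sum]
  have h1 : ∀ k ∈ range p, x • x ^ k • w = x ^ (k + 1) • w := by
    intro k _
    rw [smul_smul, pow_succ']
  rw [sum_congr rfl h1]
  have h2 := sum_range_succ (fun k => x ^ k • w) p
  have h3 := sum_range_succ' (fun k => x ^ k • w) p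
  rw [h2] at h3
  simp only [pow_zero, one_smul, h] at h3
  exact (add_right_cancel h3).symm

theorem T_of_fixed {p : ℕ} {x : Q} {w : W} (h : x • w = w) : T p x w = p • w := by
  unfold T
  have h1 : ∀ k : ℕ, x ^ k • w = w := by
    intro k
    induction k with
    | zero => simp
    | succ k ih => rw [pow_succ, mul_smul, h, ih]
  rw [sum_congr rfl fun k _ => h1 k]
  simp

theorem T_add (p : ℕ) (x : Q) (v w : W) : T p x (v + w) = T p x v + T p x w := by
  unfold T
  simp [smul_add, sum_add_distrib]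

theorem smul_T (p : ℕ) (x y : Q) (w : W) (h : Commute x y) : y • T p x w = T p x (y • w) := by
  unfold T
  rw [smul_sum]
  refine sum_congr rfl fun k _ => ?_
  rw [smul_smul, smul_smul, (h.pow_left k).eq]

theorem fixed_of_pow {p : ℕ} (hp : p.Prime) {z : Q} {w : W} {k : ℕ} (hk : ¬ p ∣ k) (h1 : z ^ p = 1)
    (h2 : z ^ k • w = w) : z • w = w := by
  have h3 : z ^ k ∈ MulAction.stabilizer Q w := h2
  have h4 : Nat.Coprime k p := ((Nat.Prime.coprime_iff_not_dvd hp).mpr hk).symm
  obtain ⟨m, -, hm⟩ := Nat.exists_mul_mod_eq_one_of_coprime h4 hp.one_lt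
  have h5 : z ^ (k * m) = z := by
    rw [← Nat.div_add_mod (k * m) p, hm, pow_add, pow_mul, h1, one_pow, one_mul, pow_one]
  have h6 : z ∈ MulAction.stabilizer Q w := by
    rw [← h5, pow_mul]
    exact pow_mem h3 m
  exact h6

/-- the basic identity. -/
theorem sum_T {p : ℕ} (hp : p.Prime) {x z : Q} (hxz : Commute x z) (hz : z ^ p = 1)
    (hfpf : ∀ w : W, z • w = w → w = 0) (w : W) :
    ∑ j ∈ range p, T p (x * z ^ j) w = p • w := by
  unfold T
  have h1 : ∀ j ∈ range p, ∑ k ∈ range p, (x * z ^ j) ^ k • w =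
      ∑ k ∈ range p, x ^ k • ((z ^ k) ^ j • w) := by
    intro j _
    refine sum_congr rfl fun k _ => ?_
    rw [(hxz.pow_right j).mul_pow, mul_smul, ← pow_mul, ← pow_mul, mul_comm j k]
  rw [sum_congr rfl h1, sum_comm]
  have h2 : ∀ k ∈ range p, ∑ j ∈ range p, x ^ k • ((z ^ k) ^ j • w) = x ^ k • T p (z ^ k) w := by
    intro k _
    unfold T
    rw [smul_sum]
  rw [sum_congr rfl h2]
  obtain ⟨q, hq⟩ : ∃ q, p = q + 1 := ⟨p - 1, (Nat.succ_pred_eq_of_pos hp.pos).symm⟩
  rw [show range p = range (q + 1) by rw [hq], sum_range_succ']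
  have h3 : ∀ k ∈ range q, x ^ (k + 1) • T p (z ^ (k + 1)) w = 0 := by
    intro k hk
    rw [mem_range] at hk
    have h4 : z ^ (k + 1) • T p (z ^ (k + 1)) w = T p (z ^ (k + 1)) w := by
      apply T_fixed
      rw [← pow_mul, mul_comm, pow_mul, hz, one_pow, one_smul]
    have h5 : ¬ p ∣ k + 1 := fun h => by
      have := Nat.le_of_dvd (Nat.succ_pos k) h
      omega
    rw [hfpf _ (fixed_of_pow hp h5 hz h4), smul_zero]
  rw [sum_eq_zero h3, zero_add, pow_zero, pow_zero, one_smul]
  exact T_of_fixed (one_smul _ _)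

theorem T_eq_zero {p : ℕ} (hp : p.Prime) {x z : Q} (hxz : Commute x z) (hx : x ^ p = 1) (hz : z ^ p = 1)
    (hfpf : ∀ w : W, z • w = w → w = 0) {i j : ℕ} (hij : ¬ (i : ℤ) ≡ j [ZMOD p]) {w : W}
    (hw : (x * z ^ j) • w = w) : T p (x * z ^ i) w = 0 := by
  have hc : Commute (x * z ^ i) (x * z ^ j) :=
    ((Commute.refl x).mul_right (hxz.pow_right j)).mul_left
      ((hxz.symm.pow_left i).mul_right ((Commute.refl z).pow_pow i j))
  have h1 : (x * z ^ i) • T p (x * z ^ i) w = T p (x * z ^ i) w := by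
    apply T_fixed
    rw [(hxz.pow_right i).mul_pow, hx, ← pow_mul, mul_comm i p, pow_mul, hz]
    simp
  have h2 : (x * z ^ j) • T p (x * z ^ i) w = T p (x * z ^ i) w := by
    rw [smul_T _ _ _ _ hc, hw]
  set v := T p (x * z ^ i) w with hv
  have h3 : z ^ i • v = z ^ j • v := by
    have h4 : x • (z ^ i • v) = x • (z ^ j • v) := by
      rw [smul_smul, smul_smul, h1, h2]
    exact smul_left_cancel x h4
  apply hfpf
  rcases le_total i j with hle | hle
  · obtain ⟨k, rfl⟩ := Nat.exists_eq_add_of_le hle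
    refine fixed_of_pow hp (k := k) (fun h => hij ?_) hz ?_
    · rw [Int.modEq_iff_dvd]
      push_cast
      simpa using (Int.natCast_dvd_natCast.mpr h)
    · rw [pow_add, mul_smul] at h3
      exact (smul_left_cancel _ h3).symm
  · obtain ⟨k, rfl⟩ := Nat.exists_eq_add_of_le hle
    refine fixed_of_pow hp (k := k) (fun h => hij ?_) hz ?_
    · apply Int.ModEq.symm
      rw [Int.modEq_iff_dvd]
      push_cast
      simpa using (Int.natCast_dvd_natCast.mpr h)
    · rw [pow_add, mul_smul] at h3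
      exact (smul_left_cancel _ h3)

theorem rank_one {p : ℕ} (hp : p.Prime) (hW : ∃ w : W, p • w ≠ 0)
    (hcen : ∀ z ∈ Subgroup.center Q, ∀ w : W, w ≠ 0 → z • w = w → z = 1)
    {z c : Q} (hz : z ∈ Subgroup.center Q) (hc : c ∈ Subgroup.center Q) (hz1 : z ≠ 1) (hzp : z ^ p = 1)
    (hcp : c ^ p = 1) : ∃ i : ℕ, c = z ^ i := by
  obtain ⟨w, hw⟩ := hW
  have hcz : Commute c z := (Subgroup.mem_center_iff.mp hz c)
  have h1 := sum_T (W := W) hp hcz hzp (fun w hw => by
    by_contra h
    exact hz1 (hcen z hz w h hw)) w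
  obtain ⟨j, hj, h2⟩ : ∃ j ∈ range p, T p (c * z ^ j) w ≠ 0 := by
    by_contra hcon
    push Not at hcon
    rw [sum_eq_zero hcon] at h1
    exact hw h1.symm
  have h3 : c * z ^ j = 1 := by
    refine hcen _ (mul_mem hc (pow_mem hz j)) _ h2 (T_fixed ?_)
    rw [(hcz.pow_right j).mul_pow, hcp, ← pow_mul, mul_comm j p, pow_mul, hzp]
    simp
  refine ⟨p - j, ?_⟩
  rw [mem_range] at hj
  have h4 : z ^ (p - j) * z ^ j = 1 := by
    rw [← pow_add, Nat.sub_add_cancel hj.le, hzp]
  exact mul_right_cancel (h3.trans h4.symm)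

/-- the action of a subgroup on an invariant subgroup. -/
@[reducible] def restr (M : Subgroup Q) (U : AddSubgroup W) (hMU : ∀ m ∈ M, ∀ u ∈ U, m • u ∈ U) :
    DistribMulAction M U where
  smul m u := ⟨(m : Q) • (u : W), hMU m m.2 u u.2⟩
  one_smul u := Subtype.ext (one_smul Q (u : W))
  mul_smul m n u := Subtype.ext (mul_smul (m : Q) (n : Q) (u : W))
  smul_zero m := Subtype.ext (smul_zero (m : Q))
  smul_add m u v := Subtype.ext (smul_add (m : Q) (u : W) (v : W))

end

/-- the inductive claim. -/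
def Claim (p n : ℕ) : Prop := ∀ (Q : Type u) (W : Type u) [Group Q] [Finite Q] [AddCommGroup W]
  [DistribMulAction Q W] [FaithfulSMul Q W], Nat.card Q = n → IsPGroup p Q →
  (∀ a b : Q, ⁅a, b⁆ ∈ Subgroup.center Q) →
  (∀ z ∈ Subgroup.center Q, ∀ w : W, w ≠ 0 → z • w = w → z = 1) → (∀ w : W, p • w = 0 → w = 0) →
  (∃ w : W, w ≠ 0) → ∃ w : W, ∀ g : Q, g • w = w → g = 1

theorem exists_order_p {p : ℕ} (hp : p.Prime) {Q : Type u} [Group Q] [Finite Q] (hP : IsPGroup p Q) {g : Q}
    (hg : g ≠ 1) : ∃ k : ℕ, (g ^ k) ^ p = 1 ∧ g ^ k ≠ 1 := by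
  have : Fact p.Prime := ⟨hp⟩
  obtain ⟨n, hn⟩ := (IsPGroup.iff_orderOf.mp hP) g
  have hn0 : n ≠ 0 := by
    rintro rfl
    rw [pow_zero, orderOf_eq_one_iff] at hn
    exact hg hn
  obtain ⟨m, rfl⟩ := Nat.exists_eq_succ_of_ne_zero hn0
  refine ⟨p ^ m, ?_, ?_⟩
  · rw [← pow_mul, ← pow_succ, ← Nat.succ_eq_add_one, ← hn, pow_orderOf_eq_one]
  · intro h
    have h1 := orderOf_dvd_of_pow_eq_one h
    rw [hn] at h1
    have h2 := Nat.le_of_dvd (pow_pos hp.pos m) h1
    have h3 : p ^ m < p ^ m.succ := Nat.pow_lt_pow_right hp.one_lt (Nat.lt_succ_self m)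
    omega

theorem claim {p : ℕ} (hp : p.Prime) (hp2 : p ≠ 2) : ∀ n, Claim.{u} p n := by
  intro n
  induction n using Nat.strong_induction_on with
  | _ n ih =>
  intro Q W _ _ _ _ _ hcard hP hcl hcen htor ⟨w1, hw1⟩
  by_cases hall : ∀ x : Q, x ^ p = 1 → ∀ w : W, w ≠ 0 → x • w = w → x = 1
  · refine ⟨w1, fun g hg => ?_⟩
    by_contra hg1
    obtain ⟨k, h1, h2⟩ := exists_order_p hp hP hg1
    refine h2 (hall _ h1 w1 hw1 ?_)
    exact (pow_mem (show g ∈ MulAction.stabilizer Q w1 from hg) k : g ^ k ∈ MulAction.stabilizer Q w1)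
  push Not at hall
  obtain ⟨x, hxp, w, hw0, hxw, hx1⟩ := hall
  have hxc : x ∉ Subgroup.center Q := fun h => hx1 (hcen x h w hw0 hxw)
  rw [Subgroup.mem_center_iff] at hxc
  push Not at hxc
  obtain ⟨y, hy⟩ := hxc
  obtain ⟨z, hz⟩ : ∃ z, z = x⁻¹ * (y * x * y⁻¹) := ⟨_, rfl⟩
  have hzc : z ∈ Subgroup.center Q := by
    have := hcl x⁻¹ y
    rw [commutatorElement_def, inv_inv] at this
    rw [hz]
    simpa [mul_assoc] using this
  have hzx : y * x * y⁻¹ = x * z := by rw [hz]; group
  have hz1 : z ≠ 1 := by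
    intro h
    rw [h, mul_one] at hzx
    exact hy (mul_inv_eq_iff_eq_mul.mp hzx)
  have hcomm : ∀ g : Q, Commute g z := fun g => Subgroup.mem_center_iff.mp hzc g
  have hzp : z ^ p = 1 := by
    have h1 : (y * x * y⁻¹) ^ p = 1 := by rw [conj_pow, hxp]; group
    rw [hzx, (hcomm x).mul_pow, hxp, one_mul] at h1
    exact h1
  have hfpf : ∀ w : W, z • w = w → w = 0 := fun w h => by
    by_contra h0
    exact hz1 (hcen z hzc w h0 h)
  -- conjugates of x
  have hpw : ∃ w : W, p • w ≠ 0 := ⟨w1, fun h => hw1 (htor w1 h)⟩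
  have hconj : ∀ g : Q, ∃ c : ℕ, g * x * g⁻¹ = x * z ^ c := by
    intro g
    have h1 : x⁻¹ * (g * x * g⁻¹) ∈ Subgroup.center Q := by
      have := hcl x⁻¹ g
      rw [commutatorElement_def, inv_inv] at this
      simpa [mul_assoc] using this
    obtain ⟨i, hi⟩ := rank_one (W := W) hp hpw hcen hzc h1 hz1 hzp (by
      have h2 : (g * x * g⁻¹) ^ p = 1 := by rw [conj_pow, hxp]; group
      have h3 : g * x * g⁻¹ = x * (x⁻¹ * (g * x * g⁻¹)) := by group
      rw [h3, (show Commute x (x⁻¹ * (g * x * g⁻¹)) from Subgroup.mem_center_iff.mp h1 x).mul_pow, hxp,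
        one_mul] at h2
      exact h2)
    exact ⟨i, by rw [← hi]; group⟩
  have hyj : ∀ j : ℕ, y ^ j * x * (y ^ j)⁻¹ = x * z ^ j := by
    intro j
    induction j with
    | zero => simp
    | succ j hj =>
      have h1 : y ^ (j + 1) * x * (y ^ (j + 1))⁻¹ = y * (y ^ j * x * (y ^ j)⁻¹) * y⁻¹ := by
        rw [pow_succ']; group
      rw [h1, hj]
      have h2 : y * (x * z ^ j) * y⁻¹ = (y * x * y⁻¹) * (y * z ^ j * y⁻¹) := by group
      have h3 : y * z ^ j * y⁻¹ = z ^ j := by
        rw [((hcomm y).pow_right j).eq, mul_assoc, mul_inv_cancel, mul_one]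
      rw [h2, h3, hzx, mul_assoc, ← pow_succ']
  -- the smaller group
  obtain ⟨M, hM⟩ : ∃ M : Subgroup Q, M = Subgroup.centralizer {x} := ⟨_, rfl⟩
  have hMx : ∀ g : Q, g ∈ M ↔ g * x = x * g := by
    intro g
    rw [hM, Subgroup.mem_centralizer_singleton_iff]
  have hyM : y ∉ M := fun h => hy ((hMx y).mp h)
  obtain ⟨U, hU⟩ : ∃ U : AddSubgroup W, ∀ w, w ∈ U ↔ x • w = w := by
    refine ⟨{ carrier := {w | x • w = w}, add_mem' := ?_, zero_mem' := smul_zero x, neg_mem' := ?_ }, fun w => Iff.rfl⟩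
    · intro a b ha hb
      show x • (a + b) = a + b
      rw [smul_add, ha, hb]
    · intro a ha
      show x • (-a) = -a
      rw [smul_neg, ha]
  have hMU : ∀ m ∈ M, ∀ u ∈ U, m • u ∈ U := by
    intro m hm u hu
    rw [hU] at hu ⊢
    rw [smul_smul, ← (hMx m).mp hm, ← smul_smul, hu]
  let _ := restr M U hMU
  have hsm : ∀ (m : M) (u : U), ((m • u : U) : W) = (m : Q) • (u : W) := fun _ _ => rfl
  let φ : M →* Equiv.Perm U := MulAction.toPermHom M U
  have hφ : ∀ (m : M) (u : U), φ m u = m • u := fun _ _ => rfl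
  have hφ1 : ∀ m : M, φ m = 1 ↔ ∀ u ∈ U, (m : Q) • u = u := by
    intro m
    constructor
    · intro h u hu
      have h1 := hφ m ⟨u, hu⟩
      rw [h] at h1
      exact (congrArg (Subtype.val) h1).symm
    · intro h
      ext u
      exact h u u.2
  let _ : DistribMulAction φ.range U :=
    { smul := fun q u => (q : Equiv.Perm U) u
      one_smul := fun _ => rfl
      mul_smul := fun _ _ _ => rfl
      smul_zero := by rintro ⟨_, m, rfl⟩; exact smul_zero m
      smul_add := by rintro ⟨_, m, rfl⟩ a b; exact smul_add m a b }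
  have hfaith : FaithfulSMul φ.range U := ⟨fun {a b} h => Subtype.ext (Equiv.ext h)⟩
  have hMlt : Nat.card M < Nat.card Q := by
    refine lt_of_le_of_ne (Subgroup.card_le_card_group M) fun h => hyM ?_
    rw [Subgroup.eq_top_of_card_eq M h]
    trivial
  have hfin : Finite φ.range := Finite.of_surjective φ.rangeRestrict φ.rangeRestrict_surjective
  have hQ0 : Nat.card φ.range < n := by
    rw [← hcard]
    refine lt_of_le_of_lt ?_ hMlt
    exact Nat.card_le_card_of_surjective φ.rangeRestrict φ.rangeRestrict_surjective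
  have hUw : (⟨w, (hU w).mpr hxw⟩ : U) ≠ 0 := fun h => hw0 (congrArg Subtype.val h)
  -- elements of M acting as central elements on U
  have hkey : ∀ m ∈ M, (∀ m' ∈ M, ∀ u ∈ U, ⁅m, m'⁆ • u = u) → ∀ w0 ∈ U, w0 ≠ 0 → m • w0 = w0 →
      ∀ u ∈ U, m • u = u := by
    intro m hm hmm w0 hw0U hw00 hmw0
    have h1 : ∀ m' ∈ M, m * m' = m' * m := by
      intro m' hm'
      have h2 := hcen _ (hcl m m') w0 hw00 (hmm m' hm' w0 hw0U)
      exact commutatorElement_eq_one_iff_mul_comm.mp h2
    obtain ⟨c, hc⟩ : ∃ c, c = y * m * y⁻¹ * m⁻¹ := ⟨_, rfl⟩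
    have hcc : c ∈ Subgroup.center Q := by
      have := hcl y m
      rw [commutatorElement_def] at this
      rw [hc]; exact this
    have hcy : y * m * y⁻¹ = c * m := by rw [hc]; group
    have hypM : y ^ p ∈ M := by
      rw [hMx]
      have h3 := hyj p
      rw [hzp, mul_one] at h3
      exact mul_inv_eq_iff_eq_mul.mp h3
    have hcj : ∀ j : ℕ, y ^ j * m * (y ^ j)⁻¹ = c ^ j * m := by
      intro j
      induction j with
      | zero => simp
      | succ j hj =>
        have h4 : y ^ (j + 1) * m * (y ^ (j + 1))⁻¹ = y * (y ^ j * m * (y ^ j)⁻¹) * y⁻¹ := by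
          rw [pow_succ']; group
        rw [h4, hj]
        have h5 : y * (c ^ j * m) * y⁻¹ = (y * c ^ j * y⁻¹) * (y * m * y⁻¹) := by group
        have h6 : y * c ^ j * y⁻¹ = c ^ j := by
          have h7 : Commute y c := Subgroup.mem_center_iff.mp hcc y
          rw [(h7.pow_right j).eq, mul_assoc, mul_inv_cancel, mul_one]
        rw [h5, h6, hcy, ← mul_assoc, ← pow_succ]
    have hcp : c ^ p = 1 := by
      have h4 := hcj p
      rw [← h1 _ hypM, mul_assoc, mul_inv_cancel, mul_one] at h4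
      exact (mul_eq_right.mp h4.symm)
    obtain ⟨i, hi⟩ := rank_one (W := W) hp hpw hcen hzc hcc hz1 hzp hcp
    -- m * x^{-i} is central
    have hxi : ∀ i : ℕ, y * x ^ i * y⁻¹ = x ^ i * z ^ i := by
      intro i
      rw [← (hcomm x).mul_pow, ← hzx, conj_pow]
    have hxm : x ∈ M := (hMx x).mpr rfl
    have hcent : m * (x ^ i)⁻¹ ∈ Subgroup.center Q := by
      have hyc : y * (m * (x ^ i)⁻¹) = (m * (x ^ i)⁻¹) * y := by
        have h8 : y * (m * (x ^ i)⁻¹) * y⁻¹ = (y * m * y⁻¹) * (y * x ^ i * y⁻¹)⁻¹ := by group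
        rw [hcy, hxi, hi, mul_inv_rev] at h8
        have h9 : z ^ i * m * ((z ^ i)⁻¹ * (x ^ i)⁻¹) = m * (x ^ i)⁻¹ := by
          rw [← mul_assoc, (((hcomm m).pow_right i).eq.symm : z ^ i * m = m * z ^ i)]
          group
        rw [h9] at h8
        exact mul_inv_eq_iff_eq_mul.mp h8
      have hMc : ∀ g ∈ M, g * (m * (x ^ i)⁻¹) = (m * (x ^ i)⁻¹) * g := by
        intro g hg
        have h10 : Commute g m := (h1 g hg).symm
        have h11 : Commute g x := (hMx g).mp hg
        exact (h10.mul_right (h11.pow_right i).inv_right)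
      rw [Subgroup.mem_center_iff]
      intro g
      obtain ⟨j, hj⟩ := hconj g
      have h12 : (y ^ j)⁻¹ * g ∈ M := by
        rw [hMx]
        have h13 : g * x * g⁻¹ = y ^ j * x * (y ^ j)⁻¹ := by rw [hj, hyj]
        have h14 : g * x = y ^ j * x * (y ^ j)⁻¹ * g := by
          rw [← h13]; group
        rw [mul_assoc, h14]; group
      have h15 : Commute (y ^ j) (m * (x ^ i)⁻¹) := (show Commute y (m * (x ^ i)⁻¹) from hyc).pow_left j
      have h16 : Commute ((y ^ j)⁻¹ * g) (m * (x ^ i)⁻¹) := hMc _ h12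
      have h17 : g = y ^ j * ((y ^ j)⁻¹ * g) := by group
      rw [h17]
      exact h15.mul_left h16
    have hxiU : ∀ u ∈ U, x ^ i • u = u := by
      intro u hu
      exact (pow_mem (show x ∈ MulAction.stabilizer Q u from (hU u).mp hu) i : x ^ i ∈ MulAction.stabilizer Q u)
    have h18 : m * (x ^ i)⁻¹ = 1 := by
      refine hcen _ hcent w0 hw00 ?_
      rw [mul_smul]
      have h19 : (x ^ i)⁻¹ • w0 = w0 := by
        rw [inv_smul_eq_iff]; exact (hxiU w0 hw0U).symm
      rw [h19, hmw0]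
    have h20 : m = x ^ i := mul_inv_eq_one.mp h18
    intro u hu
    rw [h20]; exact hxiU u hu
  obtain ⟨u0', hu0'⟩ := ih _ hQ0 φ.range U rfl (by
      exact hP.to_subgroup M |>.of_surjective φ.rangeRestrict φ.rangeRestrict_surjective) (by
      rintro ⟨_, a, rfl⟩ ⟨_, b, rfl⟩
      rw [Subgroup.mem_center_iff]
      rintro ⟨_, c, rfl⟩
      apply Subtype.ext
      have h1 : c * ⁅a, b⁆ = ⁅a, b⁆ * c := by
        apply Subtype.ext
        exact Subgroup.mem_center_iff.mp (hcl (a : Q) b) c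
      have h2 := congrArg φ h1
      rw [map_mul, map_mul, map_commutatorElement] at h2
      exact h2) (by
      rintro ⟨_, m, rfl⟩ hm w0 hw00 hmw0
      rw [Subgroup.mem_center_iff] at hm
      apply Subtype.ext
      show φ m = 1
      rw [hφ1]
      refine hkey m m.2 ?_ w0 w0.2 (fun h => hw00 (Subtype.ext h)) (congrArg Subtype.val hmw0)
      intro m' hm' u hu
      have h1 := hm ⟨φ ⟨m', hm'⟩, ⟨m', hm'⟩, rfl⟩
      have h2 : φ ⟨m', hm'⟩ * φ m = φ m * φ ⟨m', hm'⟩ := congrArg Subtype.val h1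
      have h3 : φ ⁅m, ⟨m', hm'⟩⁆ = 1 := by
        rw [map_commutatorElement, commutatorElement_eq_one_iff_mul_comm]
        exact h2.symm
      exact (hφ1 _).mp h3 u hu) (by
      intro u hu
      apply Subtype.ext
      apply htor
      exact congrArg Subtype.val hu) ⟨_, hUw⟩
  obtain ⟨u0, hu0⟩ : ∃ u0, u0 = (u0' : W) := ⟨_, rfl⟩
  have hu0U : u0 ∈ U := hu0 ▸ u0'.2
  have hreg : ∀ m ∈ M, m • u0 = u0 → ∀ u ∈ U, m • u = u := by
    intro m hm hmu
    have h1 := hu0' ⟨φ ⟨m, hm⟩, ⟨m, hm⟩, rfl⟩ (Subtype.ext (by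
      show m • (u0' : W) = u0'
      rw [← hu0]; exact hmu))
    exact (hφ1 ⟨m, hm⟩).mp (congrArg Subtype.val h1)
  have hzM : z ∈ M := (hMx z).mpr (hcomm x).symm.eq
  have hu00 : u0 ≠ 0 := by
    intro h
    have h1 := hreg z hzM (by rw [h, smul_zero]) w ((hU w).mpr hxw)
    exact hw0 (hfpf w h1)
  have hxu : x • u0 = u0 := (hU u0).mp hu0U
  have hpp : ∀ v : W, v ≠ 0 → p • v ≠ 0 := fun v hv h => hv (htor v h)
  refine ⟨u0 + y • u0, fun g hg => ?_⟩
  obtain ⟨c, hc⟩ := hconj g
  have hf0 : (x * z ^ 0) • u0 = u0 := by rw [pow_zero, mul_one, hxu]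
  have hf1 : (x * z ^ 1) • (y • u0) = y • u0 := by
    rw [pow_one, ← hzx, smul_smul]
    have : y * x * y⁻¹ * y = y * x := by group
    rw [this, mul_smul, hxu]
  have hf2 : (x * z ^ c) • (g • u0) = g • u0 := by
    rw [← hc, smul_smul]
    have : g * x * g⁻¹ * g = g * x := by group
    rw [this, mul_smul, hxu]
  have hf3 : (x * z ^ (c + 1)) • (g • y • u0) = g • y • u0 := by
    have h1 : x * z ^ (c + 1) = g * (x * z) * g⁻¹ := by
      have h2 : g * (x * z) * g⁻¹ = (g * x * g⁻¹) * (g * z * g⁻¹) := by group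
      have h3 : g * z * g⁻¹ = z := by
        rw [(hcomm g).eq, mul_assoc, mul_inv_cancel, mul_one]
      rw [h2, h3, hc, mul_assoc, ← pow_succ]
    rw [h1, smul_smul]
    have : g * (x * z) * g⁻¹ * g = g * (x * z) := by group
    rw [this, mul_smul]
    congr 1
    rw [pow_one] at hf1
    exact hf1
  have hTz : ∀ {i j : ℕ}, ¬ (i : ℤ) ≡ j [ZMOD p] → ∀ {v : W}, (x * z ^ j) • v = v → T p (x * z ^ i) v = 0 :=
    @fun _ _ hij _ hv => T_eq_zero hp (hcomm x) hxp hzp hfpf hij hv
  rw [smul_add] at hg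
  have hpi : ¬ (p : ℤ) ∣ 1 := by
    intro h
    have := Int.natCast_dvd_natCast.mp (by exact_mod_cast h : ((p : ℕ) : ℤ) ∣ ((1 : ℕ) : ℤ))
    exact hp.one_lt.ne' (Nat.dvd_one.mp this)
  have hpi2 : ¬ (p : ℤ) ∣ 2 := by
    intro h
    have := Int.natCast_dvd_natCast.mp (by exact_mod_cast h : ((p : ℕ) : ℤ) ∣ ((2 : ℕ) : ℤ))
    exact hp2 ((Nat.prime_dvd_prime_iff_eq hp Nat.prime_two).mp this)
  by_cases hpc : (p : ℤ) ∣ c
  · have hzc1 : z ^ c = 1 := by
      obtain ⟨d, hd⟩ := Int.natCast_dvd_natCast.mp hpc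
      rw [hd, pow_mul, hzp, one_pow]
    have hgM : g ∈ M := by
      rw [hMx]
      rw [hzc1, mul_one] at hc
      exact mul_inv_eq_iff_eq_mul.mp hc
    have h1 := congrArg (T p (x * z ^ 0)) hg
    rw [T_add, T_add, T_of_fixed (x := x * z ^ 0) hf0, hTz (i := 0) (j := 1) (by
      rw [Int.modEq_iff_dvd]; push_cast; simpa using hpi) hf1, hTz (i := 0) (j := c + 1) (by
      rw [Int.modEq_iff_dvd]; push_cast
      intro h
      apply hpi
      have := dvd_sub h hpc
      simpa using this) hf3, T_of_fixed (x := x * z ^ 0) (by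
      have := hf2
      rw [hzc1] at this
      rwa [pow_zero]), add_zero, add_zero] at h1
    have h2 : g • u0 = u0 := by
      have : p • (g • u0 - u0) = 0 := by rw [smul_sub, h1, sub_self]
      exact sub_eq_zero.mp (htor _ this)
    have h3 : g • y • u0 = y • u0 := by
      rw [h2] at hg
      exact add_left_cancel hg
    have h4 : (y⁻¹ * g * y) • u0 = u0 := by
      rw [mul_smul, mul_smul, h3, inv_smul_smul]
    have hcc : g⁻¹ * (y⁻¹ * g * y) ∈ Subgroup.center Q := by
      have := hcl g⁻¹ y⁻¹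
      rw [commutatorElement_def, inv_inv, inv_inv] at this
      simpa [mul_assoc] using this
    have h5 : g⁻¹ * (y⁻¹ * g * y) = 1 := by
      refine hcen _ hcc u0 hu00 ?_
      rw [mul_smul, h4, inv_smul_eq_iff, h2]
    have hgy : Commute g y := by
      have h6 : y⁻¹ * g * y = g := (inv_mul_eq_one.mp h5).symm
      have h7 : g * y = y * g := by
        rw [← h6]
        have : y * (y⁻¹ * g * y) = g * y := by group
        rw [this, h6]
      exact h7
    have hgU : ∀ u ∈ U, g • u = u := hreg g hgM h2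
    apply FaithfulSMul.eq_of_smul_eq_smul (α := W)
    intro v
    rw [one_smul]
    have h8 : ∀ j ∈ range p, g • T p (x * z ^ j) v = T p (x * z ^ j) v := by
      intro j _
      have h9 : (x * z ^ j) • T p (x * z ^ j) v = T p (x * z ^ j) v := by
        apply T_fixed
        rw [((hcomm x).pow_right j).mul_pow, hxp, ← pow_mul, mul_comm j p, pow_mul, hzp]
        simp
      set t := T p (x * z ^ j) v with ht
      have h10 : (y ^ j)⁻¹ • t ∈ U := by
        rw [hU, smul_smul]
        have h11 : x * (y ^ j)⁻¹ = (y ^ j)⁻¹ * (x * z ^ j) := by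
          rw [← hyj j]; group
        rw [h11, mul_smul, h9]
      have h12 := hgU _ h10
      rw [smul_smul, ((hgy.pow_right j).inv_right).eq, mul_smul] at h12
      exact smul_left_cancel _ h12
    have h13 := sum_T hp (hcomm x) hzp hfpf v
    have h14 : p • (g • v - v) = 0 := by
      rw [smul_sub, smul_comm p g v, ← h13, smul_sum, sum_congr rfl h8, sub_self]
    exact sub_eq_zero.mp (htor _ h14)
  · exfalso
    by_cases hpc1 : (p : ℤ) ∣ c + 1
    · have h1 := congrArg (T p (x * z ^ c)) hg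
      rw [T_add, T_add, T_of_fixed (x := x * z ^ c) hf2, hTz (i := c) (j := c + 1) (by
        rw [Int.modEq_iff_dvd]; push_cast; simpa using hpi) hf3, hTz (i := c) (j := 0) (by
        rw [Int.modEq_iff_dvd]; push_cast
        intro h
        apply hpc
        simpa using h) hf0, hTz (i := c) (j := 1) (by
        rw [Int.modEq_iff_dvd]; push_cast
        intro h
        apply hpi2
        have := dvd_add h hpc1
        have h2 : (1 : ℤ) - c + (c + 1) = 2 := by ring
        rwa [h2] at this) hf1, add_zero, add_zero] at h1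
      have h2 : g • u0 = 0 := htor _ h1
      exact hu00 ((smul_eq_zero_iff_eq g).mp h2)
    · have h1 := congrArg (T p (x * z ^ 0)) hg
      rw [T_add, T_add, T_of_fixed (x := x * z ^ 0) hf0, hTz (i := 0) (j := 1) (by
        rw [Int.modEq_iff_dvd]; push_cast; simpa using hpi) hf1, hTz (i := 0) (j := c + 1) (by
        rw [Int.modEq_iff_dvd]; push_cast
        simpa using hpc1) hf3, hTz (i := 0) (j := c) (by
        rw [Int.modEq_iff_dvd]; push_cast
        simpa using hpc) hf2, add_zero, add_zero] at h1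
      exact hu00 (htor _ h1.symm)

end Cfsg.Agent.BSV
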