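import Mathlib

/-!
# Finest systems of imprimitivity (helper78)
-/

set_option autoImplicit false
set_option linter.unusedSectionVars false

namespace Cfsg.Agent.BSV

open scoped Pointwise commutatorElement
open Finset

section

variable {H V : Type*} [Group H] [AddCommGroup V] [DistribMulAction H V]

/-- independence of a set of subgroups. -/
def Ind (s : Set (AddSubgroup V)) : Prop :=
  ∀ t : Finset (AddSubgroup V), (∀ U ∈ t, U ∈ s) → ∀ f : AddSubgroup V → V, (∀ U ∈ t, f U ∈ U) →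
    ∑ U ∈ t, f U = 0 → ∀ U ∈ t, f U = 0

theorem mem_smul_iff {h : H} {U : AddSubgroup V} {v : V} : v ∈ h • U ↔ h⁻¹ • v ∈ U :=
  AddSubgroup.mem_pointwise_smul_iff_inv_smul_mem

theorem ind_orbit {W : AddSubgroup V} (hW : Ind (MulAction.orbit H W)) {t : Set (AddSubgroup V)} (ht : Ind t)
    (htW : ∀ U ∈ t, U ≤ W) (hst : ∀ h : H, h • W = W → ∀ U ∈ t, h • U ∈ t) {U : AddSubgroup V} (hU : U ∈ t) :
    Ind (MulAction.orbit H U) := by
  classical
  intro τ hτ f hf hsum U' hU'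
  have hτ' : ∀ U' ∈ τ, ∃ h : H, h • U = U' := fun U' h => hτ U' h
  choose! k hk using hτ'
  obtain ⟨g, hg⟩ : ∃ g : AddSubgroup V → AddSubgroup V, ∀ X, g X = k X • W := ⟨_, fun _ => rfl⟩
  have hle : ∀ X ∈ τ, X ≤ g X := by
    intro X hX v hv
    rw [← hk X hX, mem_smul_iff] at hv
    rw [hg, mem_smul_iff]
    exact htW U hU hv
  have h1 : ∑ W' ∈ τ.image g, ∑ X ∈ τ with g X = W', f X = 0 := by
    rw [Finset.sum_fiberwise_of_maps_to (fun X hX => Finset.mem_image_of_mem g hX)]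
    exact hsum
  have h2 := hW (τ.image g) (by
    intro W' hW'
    obtain ⟨X, -, rfl⟩ := Finset.mem_image.mp hW'
    exact ⟨k X, (hg X).symm⟩) (fun W' => ∑ X ∈ τ with g X = W', f X) (by
    intro W' _
    refine sum_mem fun X hX => ?_
    rw [Finset.mem_filter] at hX
    rw [← hX.2]
    exact hle X hX.1 (hf X hX.1)) h1 (g U') (Finset.mem_image_of_mem g hU')
  have h3 := ht ((τ.filter fun X => g X = g U').image fun X => (k U')⁻¹ • X) (by
    intro Y hY
    obtain ⟨X, hX, rfl⟩ := Finset.mem_image.mp hY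
    rw [Finset.mem_filter, hg, hg] at hX
    rw [← hk X hX.1, smul_smul]
    refine hst _ ?_ U hU
    rw [← smul_smul, hX.2, inv_smul_smul]) (fun Y => (k U')⁻¹ • f (k U' • Y)) (by
    intro Y hY
    obtain ⟨X, hX, rfl⟩ := Finset.mem_image.mp hY
    rw [Finset.mem_filter] at hX
    show (k U')⁻¹ • f (k U' • (k U')⁻¹ • X) ∈ (k U')⁻¹ • X
    rw [smul_inv_smul, mem_smul_iff, inv_inv, smul_inv_smul]
    exact hf X hX.1) (by
    rw [Finset.sum_image (fun X _ Y _ h => smul_left_cancel _ h)]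
    simp only [smul_inv_smul]
    rw [← Finset.smul_sum, h2, smul_zero]) ((k U')⁻¹ • U') (Finset.mem_image.mpr ⟨U', by
      rw [Finset.mem_filter]; exact ⟨hU', rfl⟩, rfl⟩)
  simp only [smul_inv_smul] at h3
  exact (smul_eq_zero_iff_eq _).mp h3

/-- the minimal block. -/
structure MinBlock (H : Type*) {V : Type*} [Group H] [AddCommGroup V] [DistribMulAction H V] (W : AddSubgroup V) :
    Prop where
  ne_bot : W ≠ ⊥
  ind : Ind (MulAction.orbit H W)
  min : ∀ U : AddSubgroup V, U ≠ ⊥ → Ind (MulAction.orbit H U) → Nat.card W ≤ Nat.card U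

theorem exists_minBlock (H : Type*) {V : Type*} [Group H] [AddCommGroup V] [DistribMulAction H V] [Nontrivial V] :
    ∃ W : AddSubgroup V, MinBlock H W := by
  have h1 : ∃ n, ∃ W : AddSubgroup V, (W ≠ ⊥ ∧ Ind (MulAction.orbit H W)) ∧ Nat.card W = n := by
    refine ⟨_, ⊤, ⟨top_ne_bot, ?_⟩, rfl⟩
    intro t ht f hf hsum U hU
    have h2 : ∀ U ∈ t, U = ⊤ := by
      intro U hU
      obtain ⟨h, rfl⟩ := ht U hU
      ext v
      simp [mem_smul_iff]
    have h3 : t = {U} := by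
      ext X
      rw [Finset.mem_singleton]
      constructor
      · intro hX; rw [h2 X hX, h2 U hU]
      · rintro rfl; exact hU
    rw [h3, Finset.sum_singleton] at hsum
    exact hsum
  classical
  obtain ⟨W, ⟨hW1, hW2⟩, hW3⟩ := Nat.find_spec h1
  exact ⟨W, hW1, hW2, fun U hU1 hU2 => by
    rw [hW3]
    exact Nat.find_min' h1 ⟨U, ⟨hU1, hU2⟩, rfl⟩⟩

theorem MinBlock.eq_of_mem [Finite V] {W : AddSubgroup V} (hW : MinBlock H W) {t : Set (AddSubgroup V)} (ht : Ind t)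
    (htW : ∀ U ∈ t, U ≤ W) (hst : ∀ h : H, h • W = W → ∀ U ∈ t, h • U ∈ t) {U : AddSubgroup V} (hU : U ∈ t)
    (hU0 : U ≠ ⊥) : U = W := by
  have h1 := hW.min U hU0 (ind_orbit hW.ind ht htW hst hU)
  have h2 : (U : Set V) = W := by
    apply Set.eq_of_subset_of_ncard_le (htW U hU) _ (Set.toFinite _)
    exact h1
  exact SetLike.coe_injective h2

/-- vectors of `W` fixed by `E`. -/
def fx (W : AddSubgroup V) (E : Subgroup H) : AddSubgroup V where
  carrier := {w | w ∈ W ∧ ∀ e ∈ E, e • w = w}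
  zero_mem' := ⟨W.zero_mem, fun e _ => smul_zero e⟩
  add_mem' := fun ha hb => ⟨W.add_mem ha.1 hb.1, fun e he => by rw [smul_add, ha.2 e he, hb.2 e he]⟩
  neg_mem' := fun ha => ⟨W.neg_mem ha.1, fun e he => by rw [smul_neg, ha.2 e he]⟩

theorem mem_fx {W : AddSubgroup V} {E : Subgroup H} {w : V} : w ∈ fx W E ↔ w ∈ W ∧ ∀ e ∈ E, e • w = w := Iff.rfl

theorem smul_fx {W : AddSubgroup V} {E : Subgroup H} {h : H} (hW : h • W = W) :
    h • fx W E = fx W (E.map (MulAut.conj h).toMonoidHom) := by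
  ext v
  rw [mem_smul_iff, mem_fx, mem_fx]
  constructor
  · rintro ⟨h1, h2⟩
    refine ⟨?_, ?_⟩
    · rw [← hW, mem_smul_iff]; exact h1
    · rintro _ ⟨e, he, rfl⟩
      show (h * e * h⁻¹) • v = v
      rw [mul_smul, mul_smul, h2 e he, smul_inv_smul]
  · rintro ⟨h1, h2⟩
    refine ⟨?_, ?_⟩
    · rw [← hW, mem_smul_iff] at h1; exact h1
    · intro e he
      have h3 := h2 _ ⟨e, he, rfl⟩
      have h4 : (h * e * h⁻¹) • v = v := h3
      rw [mul_smul, mul_smul] at h4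
      rw [eq_inv_smul_iff]
      exact h4

/-- **the key property**: subgroups normalised by the stabilizer, commutative on the block, act semiregularly. -/
theorem semiregular [Finite H] [Finite V] {p : ℕ} [hp : Fact p.Prime] {W : AddSubgroup V} (hW : MinBlock H W)
    (htor : ∀ v : V, p • v = 0 → v = 0) {D : Subgroup H} (hD : IsPGroup p D) (hDW : ∀ d ∈ D, d • W = W)
    (hDn : ∀ h : H, h • W = W → ∀ d ∈ D, h * d * h⁻¹ ∈ D)
    (hDc : ∀ d ∈ D, ∀ e ∈ D, ∀ w ∈ W, d • e • w = e • d • w) {d : H} (hd : d ∈ D) {w : V} (hw : w ∈ W)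
    (hw0 : w ≠ 0) (hdw : d • w = w) : ∀ u ∈ W, d • u = u := by
  classical
  have hmemW : ∀ d ∈ D, ∀ w ∈ W, d • w ∈ W := by
    intro d hd w hw
    rw [← hDW d hd]
    exact AddSubgroup.smul_mem_pointwise_smul w d W hw
  -- the family
  let F : Set (Subgroup H) := {E | E ≤ D ∧ fx W E ≠ ⊥}
  have hz : Subgroup.zpowers d ∈ F := by
    refine ⟨by rwa [Subgroup.zpowers_le], fun h => hw0 ?_⟩
    have h1 : w ∈ fx W (Subgroup.zpowers d) := by
      refine ⟨hw, fun e he => ?_⟩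
      have h2 : Subgroup.zpowers d ≤ MulAction.stabilizer H w := by
        rw [Subgroup.zpowers_le]; exact hdw
      exact h2 he
    rw [h, AddSubgroup.mem_bot] at h1
    exact h1
  obtain ⟨E, hdE, hE⟩ := (Set.toFinite F).exists_le_maximal hz
  have hjoin : ∀ E₁ E₂ : Subgroup H, Maximal (· ∈ F) E₁ → Maximal (· ∈ F) E₂ → E₁ ≠ E₂ → ∀ v, v ∈ fx W E₁ →
      v ∈ fx W E₂ → v = 0 := by
    intro E₁ E₂ h1 h2 hne v hv1 hv2
    by_contra hv0
    have h3 : E₁ ⊔ E₂ ∈ F := by
      refine ⟨sup_le h1.prop.1 h2.prop.1, fun h => hv0 ?_⟩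
      have h4 : v ∈ fx W (E₁ ⊔ E₂) := by
        refine ⟨hv1.1, fun e he => ?_⟩
        have h5 : E₁ ⊔ E₂ ≤ MulAction.stabilizer H v := sup_le (fun e he => hv1.2 e he) (fun e he => hv2.2 e he)
        exact h5 he
      rw [h, AddSubgroup.mem_bot] at h4
      exact h4
    have h6 := h1.eq_of_ge h3 le_sup_left
    have h7 := h2.eq_of_ge h3 le_sup_right
    exact hne (h6.symm.trans h7)
  let t : Set (AddSubgroup V) := {U | ∃ E' : Subgroup H, Maximal (· ∈ F) E' ∧ U = fx W E'}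
  have hind : Ind t := by
    intro τ hτ f hf hsum U₀ hU₀
    obtain ⟨E₀, hE₀, rfl⟩ := hτ U₀ hU₀
    have hfin : Fintype E₀ := Fintype.ofFinite _
    have h1 : ∑ e : E₀, (e : H) • ∑ U ∈ τ, f U = 0 := by
      rw [hsum]; simp
    have h2 : ∑ e : E₀, (e : H) • ∑ U ∈ τ, f U = ∑ U ∈ τ, ∑ e : E₀, (e : H) • f U := by
      rw [Finset.sum_comm]
      refine Finset.sum_congr rfl fun e _ => ?_
      rw [Finset.smul_sum]
    rw [h2] at h1
    have h3 : ∀ U ∈ τ, U ≠ fx W E₀ → ∑ e : E₀, (e : H) • f U = 0 := by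
      intro U hU hne
      obtain ⟨E₁, hE₁, rfl⟩ := hτ U hU
      have hne' : E₀ ≠ E₁ := fun h => hne (by rw [h])
      refine hjoin E₀ E₁ hE₀ hE₁ hne' _ ⟨?_, ?_⟩ ⟨?_, ?_⟩
      · exact sum_mem fun e _ => hmemW _ (hE₀.prop.1 e.2) _ (hf _ hU).1
      · intro e he
        rw [Finset.smul_sum]
        have h4 : ∀ x : E₀, e • (x : H) • f (fx W E₁) = ((⟨e, he⟩ * x : E₀) : H) • f (fx W E₁) := by
          intro x; rw [smul_smul]; rfl
        simp only [h4]
        exact Fintype.sum_equiv (Equiv.mulLeft (⟨e, he⟩ : E₀)) _ _ (fun x => rfl)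
      · exact sum_mem fun e _ => hmemW _ (hE₀.prop.1 e.2) _ (hf _ hU).1
      · intro e he
        rw [Finset.smul_sum]
        refine Finset.sum_congr rfl fun x _ => ?_
        rw [hDc e (hE₁.prop.1 he) x (hE₀.prop.1 x.2) _ (hf _ hU).1, (hf _ hU).2 e he]
    rw [Finset.sum_eq_single_of_mem _ hU₀ (fun U hU hne => h3 U hU hne)] at h1
    have h4 : ∑ e : E₀, (e : H) • f (fx W E₀) = Fintype.card E₀ • f (fx W E₀) := by
      rw [Finset.sum_congr rfl (fun (e : E₀) _ => (hf _ hU₀).2 (e : H) e.2)]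
      simp
    rw [h4] at h1
    obtain ⟨n, hn⟩ := (IsPGroup.iff_card.mp (hD.to_le hE₀.prop.1))
    rw [← Nat.card_eq_fintype_card, hn] at h1
    clear h4
    induction n generalizing f with
    | zero => simpa using h1
    | succ n _ =>
      have h5 : ∀ (n : ℕ) (v : V), p ^ n • v = 0 → v = 0 := by
        intro n
        induction n with
        | zero => intro v hv; simpa using hv
        | succ n ih =>
          intro v hv
          rw [pow_succ, mul_smul] at hv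
          exact htor _ (ih _ hv)
      exact h5 _ _ h1
  have hst : ∀ h : H, h • W = W → ∀ U ∈ t, h • U ∈ t := by
    rintro h hh U ⟨E', hE', rfl⟩
    have hcon : ∀ (h : H), h • W = W → ∀ E' : Subgroup H, E' ∈ F → E'.map (MulAut.conj h).toMonoidHom ∈ F := by
      intro h hh E' hE'
      refine ⟨?_, ?_⟩
      · rintro _ ⟨e, he, rfl⟩
        exact hDn h hh e (hE'.1 he)
      · rw [← smul_fx hh]
        intro h1
        apply hE'.2
        rw [AddSubgroup.eq_bot_iff_forall] at h1 ⊢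
        intro v hv
        have h2 := h1 (h • v) (AddSubgroup.smul_mem_pointwise_smul v h _ hv)
        exact (smul_eq_zero_iff_eq h).mp h2
    have hh' : h⁻¹ • W = W := by rw [inv_smul_eq_iff]; exact hh.symm
    refine ⟨E'.map (MulAut.conj h).toMonoidHom, ⟨hcon h hh E' hE'.prop, ?_⟩, smul_fx hh⟩
    intro X hX hle
    have h1 := hcon h⁻¹ hh' X hX
    have h2 : E' ≤ X.map (MulAut.conj h⁻¹).toMonoidHom := by
      intro e he
      exact ⟨h * e * h⁻¹, hle ⟨e, he, rfl⟩, by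
        show h⁻¹ * (h * e * h⁻¹) * h⁻¹⁻¹ = e
        group⟩
    have h3 := hE'.2 h1 h2
    intro x hx
    have h4 := h3 ⟨x, hx, rfl⟩
    refine ⟨_, h4, ?_⟩
    show h * (h⁻¹ * x * h⁻¹⁻¹) * h⁻¹ = x
    group
  have hfin := hW.eq_of_mem hind (by
    rintro U ⟨E', -, rfl⟩
    exact fun v hv => hv.1) hst ⟨E, hE, rfl⟩ hE.prop.2
  intro u hu
  rw [← hfin] at hu
  exact hu.2 d (hdE (Subgroup.mem_zpowers d))

end

end Cfsg.Agent.BSV
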