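import Cfsg.Agent.BSV.Vec
import Cfsg.Agent.Solv.Core
import Cfsg.Agent.H30.Carter

/-!
# A variation on the Baer-Suzuki theorem for solvable groups (helper78)
-/

set_option autoImplicit false
set_option linter.unusedSectionVars false

namespace Cfsg.Agent.BSV

open Cfsg Cfsg.Agent.Solv

universe u

/-- every class contains `g` such that `a` and `a^g` generate a `p`-group. -/
def GoodEl (p : ℕ) {G : Type u} [Group G] (a : G) : Prop :=
  ∀ c : G, ∃ g : G, IsConj c g ∧ IsPGroup p (Subgroup.closure {a, g * a * g⁻¹})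

theorem GoodEl.quotient {p : ℕ} {G : Type u} [Group G] {a : G} (h : GoodEl p a) (N : Subgroup G) [N.Normal] :
    GoodEl p (a : G ⧸ N) := by
  intro c
  obtain ⟨c, rfl⟩ := QuotientGroup.mk'_surjective N c
  obtain ⟨g, hg, hp⟩ := h c
  refine ⟨(g : G ⧸ N), (QuotientGroup.mk' N).map_isConj hg, ?_⟩
  have h1 : Subgroup.closure {(a : G ⧸ N), (g : G ⧸ N) * a * (g : G ⧸ N)⁻¹} =
      (Subgroup.closure {a, g * a * g⁻¹}).map (QuotientGroup.mk' N) := by
    rw [MonoidHom.map_closure, Set.image_pair]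
    rfl
  rw [h1]
  exact hp.map _

theorem main {p : ℕ} [hp : Fact p.Prime] (hp2 : p ≠ 2) : ∀ (n : ℕ) (G : Type u) [Group G] [Finite G]
    (_ : Group.IsSolvable G) (_ : Nat.card G = n) (a : G), GoodEl p a → a ∈ pCore p G := by
  intro n
  induction n using Nat.strong_induction_on with
  | _ n ih =>
  intro G _ _ hG hn a ha
  by_contra hcon
  have ha1 : a ≠ 1 := fun h => hcon (h ▸ (pCore p G).one_mem)
  have hnt : Nontrivial G := ⟨a, 1, ha1⟩
  have hlt : ∀ N : Subgroup G, N.Normal → N ≠ ⊥ → Nat.card (G ⧸ N) < n := by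
    intro N _ hN
    rw [← hn, Subgroup.card_eq_card_quotient_mul_card_subgroup N]
    have h1 : 1 < Nat.card N := by
      rw [Finite.one_lt_card_iff_nontrivial]
      exact (Subgroup.nontrivial_iff_ne_bot N).mpr hN
    have h2 : 0 < Nat.card (G ⧸ N) := Nat.card_pos
    nlinarith
  have hO : pCore p G = ⊥ := by
    by_contra hne
    have h1 := ih _ (hlt _ inferInstance hne) (G ⧸ pCore p G) inferInstance rfl _ (ha.quotient (pCore p G))
    have h2 : IsPGroup p ((pCore p (G ⧸ pCore p G)).comap (QuotientGroup.mk' (pCore p G))) := by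
      apply IsPGroup.comap_of_ker_isPGroup (pCore_isPGroup p)
      rw [QuotientGroup.ker_mk']
      exact pCore_isPGroup p
    exact hcon (le_pCore inferInstance h2 h1)
  obtain ⟨r, V, hr, hVn, hVb, hVe, hVmin⟩ := Cfsg.Agent.H30.exists_minimal_normal G
  have hVcomm : ∀ v ∈ V, ∀ w ∈ V, v * w = w * v := by
    intro v hv w hw
    have := hVe.1
    exact congrArg Subtype.val (this.is_comm.comm (⟨v, hv⟩ : V) ⟨w, hw⟩)
  have hVr : IsPGroup r V := by
    intro v
    exact ⟨1, by rw [pow_one]; exact Subtype.ext (hVe.2 v v.2)⟩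
  have hrp : r ≠ p := by
    rintro rfl
    exact hVb (le_bot_iff.mp (hO ▸ le_pCore hVn hVr))
  have hcop : Nat.Coprime p r := (Nat.coprime_primes hp.out hr).mpr hrp.symm
  have h3 := ih _ (hlt _ hVn hVb) (G ⧸ V) inferInstance rfl _ (ha.quotient V)
  obtain ⟨K, hK⟩ : ∃ K : Subgroup G, K = (pCore p (G ⧸ V)).comap (QuotientGroup.mk' V) := ⟨_, rfl⟩
  have hKn : K.Normal := by rw [hK]; infer_instance
  have haK : a ∈ K := by rw [hK]; exact h3
  have hKp : ∀ k ∈ K, ∃ m : ℕ, k ^ p ^ m ∈ V := by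
    intro k hk
    rw [hK] at hk
    obtain ⟨m, hm⟩ := pCore_isPGroup p (⟨_, hk⟩ : pCore p (G ⧸ V))
    refine ⟨m, ?_⟩
    have h4 := congrArg Subtype.val hm
    have h5 : ((k ^ p ^ m : G) : G ⧸ V) = 1 := h4
    exact (QuotientGroup.eq_one_iff _).mp h5
  have hap : IsPGroup p (Subgroup.zpowers a) := by
    obtain ⟨g, -, hg⟩ := ha 1
    refine hg.to_le ?_
    rw [Subgroup.zpowers_le]
    exact Subgroup.subset_closure (Set.mem_insert _ _)
  -- `a` does not centralize `V`
  have haV : ¬ ∀ v ∈ V, a * v = v * a := by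
    intro hcen
    obtain ⟨L, hL⟩ : ∃ L : Subgroup G, L = K ⊓ Subgroup.centralizer (V : Set G) := ⟨_, rfl⟩
    have hLn : L.Normal := by rw [hL]; infer_instance
    have haL : a ∈ L := by
      rw [hL]
      refine ⟨haK, ?_⟩
      have h4 : a ∈ Subgroup.centralizer (V : Set G) := by
        rw [Subgroup.mem_centralizer_iff]
        intro v hv
        exact (hcen v hv).symm
      exact h4
    have hLnil : Group.IsNilpotent L := by
      have h4 : (V.subgroupOf L).Normal := inferInstance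
      have h5 : IsPGroup p (L ⧸ V.subgroupOf L) := by
        intro x
        obtain ⟨x, rfl⟩ := QuotientGroup.mk'_surjective _ x
        have hLK : L ≤ K := by rw [hL]; exact inf_le_left
        have hxK : (x : G) ∈ K := hLK x.2
        obtain ⟨m, hm⟩ := hKp x hxK
        refine ⟨m, ?_⟩
        rw [← map_pow]
        exact (QuotientGroup.eq_one_iff _).mpr (Subgroup.mem_subgroupOf.mpr hm)
      have h6 : Group.IsNilpotent (L ⧸ V.subgroupOf L) := h5.isNilpotent
      refine Subgroup.isNilpotent_of_ker_le_center (QuotientGroup.mk' (V.subgroupOf L)) ?_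
      rw [QuotientGroup.ker_mk']
      intro v hv
      rw [Subgroup.mem_center_iff]
      intro g
      have hLC : L ≤ Subgroup.centralizer (V : Set G) := by rw [hL]; exact inf_le_right
      have := (Subgroup.mem_centralizer_iff.mp (hLC g.2)) v (Subgroup.mem_subgroupOf.mp hv)
      exact Subtype.ext this.symm
    have h7 : IsPGroup p (Subgroup.zpowers (⟨a, haL⟩ : L)) := by
      have h8 : (Subgroup.zpowers (⟨a, haL⟩ : L)) = (Subgroup.zpowers a).subgroupOf L := by
        ext x
        rw [Subgroup.mem_subgroupOf, Subgroup.mem_zpowers_iff, Subgroup.mem_zpowers_iff]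
        constructor
        · rintro ⟨k, rfl⟩
          exact ⟨k, rfl⟩
        · rintro ⟨k, hk⟩
          exact ⟨k, Subtype.ext hk⟩
      rw [h8]
      exact hap.comap_subtype
    obtain ⟨S, hS⟩ := h7.exists_le_sylow
    have hSn : (S : Subgroup L).Normal := by
      have h9 := (Group.isNilpotent_of_finite_tfae (G := L)).out 0 3
      exact h9.mp hLnil p hp S
    have h10 : (⟨a, haL⟩ : L) ∈ pCore p L := le_pCore hSn S.isPGroup' (hS (Subgroup.mem_zpowers _))
    exact hcon (map_subtype_pCore_le p L ⟨_, h10, rfl⟩)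
  -- the module
  let ρ : G →* MulAut V := MulAut.conjNormal
  have hρ : ∀ (g : G) (v : V), ((ρ g v : V) : G) = g * v * g⁻¹ := fun g v => MulAut.conjNormal_apply g v
  let _ : CommGroup V := { (inferInstance : Group V) with mul_comm := fun a b => Subtype.ext (hVcomm a a.2 b b.2) }
  let _ : DistribMulAction ρ.range (Additive V) :=
    { smul := fun q v => Additive.ofMul ((q : MulAut V) v.toMul)
      one_smul := fun _ => rfl
      mul_smul := fun _ _ _ => rfl
      smul_zero := fun q => congrArg Additive.ofMul (map_one (q : MulAut V))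
      smul_add := fun q v w => congrArg Additive.ofMul (map_mul (q : MulAut V) v.toMul w.toMul) }
  have hsm : ∀ (q : ρ.range) (v : Additive V), (q • v).toMul = (q : MulAut V) v.toMul := fun _ _ => rfl
  have hfin : Finite ρ.range := Finite.of_surjective ρ.rangeRestrict ρ.rangeRestrict_surjective
  have hfin2 : Finite (Additive V) := inferInstanceAs (Finite V)
  obtain ⟨v, hv⟩ := exists_vec (p := p) (H := ρ.range) (V := Additive V) hp2 (by
      intro U hU
      obtain ⟨U', hU'⟩ : ∃ U' : Subgroup G, ∀ g, g ∈ U' ↔ ∃ hg : g ∈ V, Additive.ofMul (⟨g, hg⟩ : V) ∈ U := by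
        refine ⟨{ carrier := {g | ∃ hg : g ∈ V, Additive.ofMul (⟨g, hg⟩ : V) ∈ U}
                  one_mem' := ⟨V.one_mem, U.zero_mem⟩
                  mul_mem' := fun {x y} hx hy => by
                    obtain ⟨hx1, hx2⟩ := hx
                    obtain ⟨hy1, hy2⟩ := hy
                    exact ⟨V.mul_mem hx1 hy1, U.add_mem hx2 hy2⟩
                  inv_mem' := fun {x} hx => by
                    obtain ⟨hx1, hx2⟩ := hx
                    exact ⟨V.inv_mem hx1, U.neg_mem hx2⟩ }, fun g => Iff.rfl⟩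
      have hU'n : U'.Normal := by
        constructor
        intro x hx g
        rw [hU'] at hx ⊢
        obtain ⟨hx1, hx2⟩ := hx
        refine ⟨hVn.conj_mem x hx1 g, ?_⟩
        have h4 := hU ⟨ρ g, ⟨g, rfl⟩⟩
        rw [← h4]
        have h5 := AddSubgroup.smul_mem_pointwise_smul _ (⟨ρ g, ⟨g, rfl⟩⟩ : ρ.range) U hx2
        have h6 : (⟨ρ g, ⟨g, rfl⟩⟩ : ρ.range) • Additive.ofMul (⟨x, hx1⟩ : V) =
            Additive.ofMul (⟨g * x * g⁻¹, hVn.conj_mem x hx1 g⟩ : V) :=
          congrArg Additive.ofMul (Subtype.ext (hρ g ⟨x, hx1⟩))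
        rw [h6] at h5
        exact h5
      rcases hVmin U' hU'n (fun x hx => ((hU' x).mp hx).1) with h4 | h4
      · left
        rw [AddSubgroup.eq_bot_iff_forall]
        intro x hx
        have h5 : ((x.toMul : V) : G) ∈ U' := (hU' _).mpr ⟨x.toMul.2, hx⟩
        rw [h4, Subgroup.mem_bot] at h5
        exact congrArg Additive.ofMul (Subtype.ext h5)
      · right
        rw [AddSubgroup.eq_top_iff']
        intro x
        have h5 : ((x.toMul : V) : G) ∈ U' := by rw [h4]; exact x.toMul.2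
        exact ((hU' _).mp h5).2) (by
      intro v hv
      have h4 : (v.toMul : V) ^ p = 1 := congrArg Additive.toMul hv
      have h5 : (v.toMul : V) ^ r = 1 := Subtype.ext (hVe.2 _ v.toMul.2)
      have h6 : (v.toMul : V) ^ Nat.gcd p r = 1 := pow_gcd_eq_one.mpr ⟨h4, h5⟩
      rw [hcop, pow_one] at h6
      exact congrArg Additive.ofMul h6) (P := K.map ρ.rangeRestrict) (by
      rintro ⟨_, k, hk, rfl⟩
      obtain ⟨m, hm⟩ := hKp k hk
      refine ⟨m, Subtype.ext (Subtype.ext ?_)⟩
      show (ρ k) ^ p ^ m = 1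
      rw [← map_pow]
      ext v
      rw [hρ]
      show _ = (v : G)
      rw [hVcomm _ hm v v.2]
      group) (by
      rintro ⟨_, g, rfl⟩ _ ⟨k, hk, rfl⟩
      exact ⟨g * k * g⁻¹, hKn.conj_mem k hk g, Subtype.ext (by simp)⟩) (by
      rintro x _ hx
      apply Subtype.ext
      ext v
      have := hx (Additive.ofMul v)
      exact congrArg (fun y : Additive V => ((y.toMul : V) : G)) this) (a := ρ.rangeRestrict a) ⟨a, haK, rfl⟩ (by
      intro h
      apply haV
      intro v hv
      have h4 : ρ a = 1 := congrArg Subtype.val h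
      have h5 := hρ a ⟨v, hv⟩
      rw [h4] at h5
      have h6 : v = a * v * a⁻¹ := h5
      exact (eq_mul_inv_iff_mul_eq.mp h6).symm)
  obtain ⟨g', hg', hpg⟩ := ha ((v.toMul : V) : G)
  obtain ⟨x, hx⟩ := isConj_iff.mp hg'
  have hg'V : g' ∈ V := by rw [← hx]; exact hVn.conj_mem _ v.toMul.2 x
  have hc1 : g' * a * g'⁻¹ * a⁻¹ = 1 := by
    have h4 : g' * a * g'⁻¹ * a⁻¹ ∈ V := by
      have h5 := V.mul_mem hg'V (hVn.conj_mem _ (V.inv_mem hg'V) a)
      have h6 : g' * (a * g'⁻¹ * a⁻¹) = g' * a * g'⁻¹ * a⁻¹ := by group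
      rwa [h6] at h5
    have h5 : g' * a * g'⁻¹ * a⁻¹ ∈ Subgroup.closure {a, g' * a * g'⁻¹} :=
      Subgroup.mul_mem _ (Subgroup.subset_closure (by simp)) (Subgroup.inv_mem _ (Subgroup.subset_closure (by simp)))
    obtain ⟨m, hm⟩ := hpg ⟨_, h5⟩
    have h6 : (g' * a * g'⁻¹ * a⁻¹) ^ p ^ m = 1 := congrArg Subtype.val hm
    have h7 : (g' * a * g'⁻¹ * a⁻¹) ^ r = 1 := hVe.2 _ h4
    have h8 := pow_gcd_eq_one.mpr ⟨h6, h7⟩
    have h9 : Nat.gcd (p ^ m) r = 1 := Nat.Coprime.pow_left m hcop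
    rwa [h9, pow_one] at h8
  have hc2 : g' * a = a * g' := by
    have := mul_inv_eq_one.mp hc1
    exact mul_inv_eq_iff_eq_mul.mp this
  apply hv (ρ.rangeRestrict x⁻¹)
  apply congrArg Additive.ofMul
  apply Subtype.ext
  show ((ρ x⁻¹ * ρ a * (ρ x⁻¹)⁻¹) v.toMul : G) = _
  rw [← map_mul, ← map_inv, ← map_mul, hρ, inv_inv]
  have h10 : x * (v.toMul : G) * x⁻¹ * a = a * (x * (v.toMul : G) * x⁻¹) := by rw [hx]; exact hc2
  have h11 : a * x * (v.toMul : G) = x * (v.toMul : G) * x⁻¹ * a * x := by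
    rw [h10]; group
  have h12 : x⁻¹ * a * x * (v.toMul : G) = (v.toMul : G) * x⁻¹ * a * x := by
    have : x⁻¹ * a * x * (v.toMul : G) = x⁻¹ * (a * x * (v.toMul : G)) := by group
    rw [this, h11]; group
  rw [h12]
  group
  rfl

end Cfsg.Agent.BSV
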