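import Mathlib

/-!
# A subset with trivial stabilizer (helper78)

`exists_subset`: a `p`-group, `p` odd, acting on a finite set has a subset whose setwise stabilizer acts trivially.
-/

set_option autoImplicit false
set_option linter.unusedSectionVars false

namespace Cfsg.Agent.BSV

universe u v

/-- the inductive claim. -/
def Good (P : Type u) (Ω : Type v) [Group P] [MulAction P Ω] : Prop :=
  ∃ Δ : Set Ω, ∀ g : P, (∀ ω, g • ω ∈ Δ ↔ ω ∈ Δ) → ∀ ω : Ω, g • ω = ω

theorem good_split {P : Type u} {Ω : Type v} [Group P] [MulAction P Ω] (A B : SubMulAction P Ω)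
    (hAB : ∀ ω, ω ∈ A ∨ ω ∈ B) (hd : ∀ ω, ω ∈ A → ω ∉ B) (hA : Good P A) (hB : Good P B) : Good P Ω := by
  obtain ⟨DA, hDA⟩ := hA
  obtain ⟨DB, hDB⟩ := hB
  refine ⟨Subtype.val '' DA ∪ Subtype.val '' DB, fun g hg ω => ?_⟩
  rcases hAB ω with h | h
  · have h1 := hDA g (fun ω' => by
      have h2 := hg ω'
      constructor
      · intro h3
        rcases h2.mp (Or.inl ⟨_, h3, rfl⟩) with ⟨x, hx, hxe⟩ | ⟨x, hx, hxe⟩
        · rwa [← Subtype.ext hxe]
        · exact absurd (hxe ▸ x.2) (hd _ ω'.2)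
      · intro h3
        rcases h2.mpr (Or.inl ⟨_, h3, rfl⟩) with ⟨x, hx, hxe⟩ | ⟨x, hx, hxe⟩
        · have : x = g • ω' := Subtype.ext hxe
          rwa [← this]
        · exact absurd (show ((g • ω' : A) : Ω) ∈ B from (show (x : Ω) = ((g • ω' : A) : Ω) from hxe) ▸ x.2)
            (hd _ (g • ω').2)) ⟨ω, h⟩
    exact congrArg Subtype.val h1
  · have h1 := hDB g (fun ω' => by
      have h2 := hg ω'
      constructor
      · intro h3
        rcases h2.mp (Or.inr ⟨_, h3, rfl⟩) with ⟨x, hx, hxe⟩ | ⟨x, hx, hxe⟩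
        · exact absurd ω'.2 (hd _ (hxe ▸ x.2))
        · rwa [← Subtype.ext hxe]
      · intro h3
        rcases h2.mpr (Or.inr ⟨_, h3, rfl⟩) with ⟨x, hx, hxe⟩ | ⟨x, hx, hxe⟩
        · exact absurd (g • ω').2 (hd _ (show ((g • ω' : B) : Ω) ∈ A from
            (show (x : Ω) = ((g • ω' : B) : Ω) from hxe) ▸ x.2))
        · have : x = g • ω' := Subtype.ext hxe
          rwa [← this]) ⟨ω, h⟩
    exact congrArg Subtype.val h1

theorem exists_coatom_normal {p : ℕ} [Fact p.Prime] {P : Type u} [Group P] [Finite P] (hP : IsPGroup p P)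
    {S : Subgroup P} (hS : S ≠ ⊤) : ∃ N : Subgroup P, S ≤ N ∧ N ≠ ⊤ ∧ N.Normal := by
  have hnil : Group.IsNilpotent P := hP.isNilpotent
  rcases eq_top_or_exists_le_coatom S with h | ⟨N, hN, hSN⟩
  · exact absurd h hS
  · exact ⟨N, hSN, hN.1, Subgroup.NormalizerCondition.normal_of_coatom N Group.normalizerCondition_of_isNilpotent hN⟩

theorem orbit_aux {P : Type u} {Ω : Type v} [Group P] [MulAction P Ω] {ω0 ω : Ω} (c : P)
    (h : ω ∈ MulAction.orbit P ω0) : c • ω ∈ MulAction.orbit P ω0 := by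
  obtain ⟨g, rfl⟩ := h
  exact ⟨c * g, mul_smul c g ω0⟩

theorem good {p : ℕ} [Fact p.Prime] (hp2 : p ≠ 2) : ∀ n : ℕ, ∀ (P : Type u) (Ω : Type v) [Group P] [Finite P]
    [MulAction P Ω] [Finite Ω], IsPGroup p P → Nat.card Ω = n → Good P Ω := by
  intro n
  induction n using Nat.strong_induction_on with
  | _ n ih =>
  intro P Ω _ _ _ _ hP hn
  by_cases hsub : Subsingleton Ω
  · exact ⟨∅, fun g _ ω => Subsingleton.elim _ _⟩
  rw [not_subsingleton_iff_nontrivial] at hsub
  obtain ⟨ω0⟩ : Nonempty Ω := inferInstance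
  by_cases htr : ∀ ω : Ω, ω ∈ MulAction.orbit P ω0
  · have hS : MulAction.stabilizer P ω0 ≠ ⊤ := by
      intro h
      obtain ⟨ω1, h1⟩ := exists_ne ω0
      obtain ⟨m, hm⟩ := htr ω1
      apply h1
      rw [← hm]
      have : m ∈ MulAction.stabilizer P ω0 := h ▸ Subgroup.mem_top m
      exact this
    obtain ⟨N, hSN, hN1, hN2⟩ := exists_coatom_normal hP hS
    have hlt : Nat.card (MulAction.orbit N ω0) < n := by
      rw [← hn]
      have h1 : Nat.card (MulAction.orbit N ω0) = (MulAction.orbit N ω0).ncard := rfl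
      rw [h1, ← Set.ncard_univ]
      apply Set.ncard_lt_ncard _ Set.finite_univ
      rw [Set.ssubset_univ_iff]
      intro h
      apply hN1
      rw [Subgroup.eq_top_iff']
      intro g
      obtain ⟨m, hm⟩ := (h ▸ Set.mem_univ (g • ω0) : g • ω0 ∈ MulAction.orbit N ω0)
      have h2 : (m : P)⁻¹ * g ∈ MulAction.stabilizer P ω0 := by
        rw [MulAction.mem_stabilizer_iff, mul_smul, inv_smul_eq_iff]
        exact hm.symm
      have := N.mul_mem m.2 (hSN h2)
      simpa using this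
    obtain ⟨Δ0, hΔ0⟩ := ih _ hlt N (MulAction.orbit N ω0) (hP.to_subgroup N) rfl
    choose m hm using htr
    have hm' : ∀ ω, m ω • ω0 = ω := hm
    -- the block function
    obtain ⟨b, hb⟩ : ∃ b : Ω → P ⧸ N, ∀ ω, b ω = (m ω : P ⧸ N) := ⟨_, fun _ => rfl⟩
    have hb1 : ∀ g : P, b (g • ω0) = (g : P ⧸ N) := by
      intro g
      rw [hb, QuotientGroup.eq]
      apply hSN
      rw [MulAction.mem_stabilizer_iff, mul_smul, inv_smul_eq_iff]
      exact (hm' (g • ω0)).symm
    have hb2 : ∀ (g : P) (ω : Ω), b (g • ω) = (g : P ⧸ N) * b ω := by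
      intro g ω
      conv_lhs => rw [← hm' ω]
      rw [smul_smul, hb1, hb]
      rfl
    have hb3 : ∀ ω, b ω = 1 ↔ ω ∈ MulAction.orbit N ω0 := by
      intro ω
      constructor
      · intro h
        rw [hb, QuotientGroup.eq_one_iff] at h
        exact ⟨⟨m ω, h⟩, hm' ω⟩
      · rintro ⟨n, rfl⟩
        show b ((n : P) • ω0) = 1
        rw [hb1, QuotientGroup.eq_one_iff]
        exact n.2
    obtain ⟨r, hr, hr1⟩ : ∃ r : P ⧸ N → P, (∀ q, (r q : P ⧸ N) = q) ∧ r 1 = 1 := by
      classical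
      refine ⟨fun q => if q = 1 then 1 else q.out, fun q => ?_, by simp⟩
      by_cases hq : q = 1
      · simp [hq]
      · simp only [hq, if_false]
        exact QuotientGroup.out_eq' q
    obtain ⟨D0, hD0⟩ : ∃ D0 : Set Ω, D0 = Subtype.val '' Δ0 := ⟨_, rfl⟩
    have hD0s : ∀ ω ∈ D0, b ω = 1 := by
      rintro ω hω
      rw [hD0] at hω
      obtain ⟨x, -, rfl⟩ := hω
      exact (hb3 _).mpr x.2
    have hD0N : ∀ g ∈ N, (∀ ω, b ω = 1 → (g • ω ∈ D0 ↔ ω ∈ D0)) → ∀ ω, b ω = 1 → g • ω = ω := by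
      intro g hg h ω hω
      have h1 := hΔ0 ⟨g, hg⟩ (fun ω' => by
        have h2 := h ω' ((hb3 _).mpr ω'.2)
        rw [hD0] at h2
        constructor
        · intro h3
          obtain ⟨x, hx, hxe⟩ := h2.mp ⟨_, h3, rfl⟩
          rwa [← Subtype.ext hxe]
        · intro h3
          obtain ⟨x, hx, hxe⟩ := h2.mpr ⟨_, h3, rfl⟩
          have : x = (⟨g, hg⟩ : N) • ω' := Subtype.ext hxe
          rwa [← this]) ⟨ω, (hb3 _).mp hω⟩
      exact congrArg Subtype.val h1
    refine ⟨{ω | (b ω = 1 ∧ ω ∉ D0) ∨ (b ω ≠ 1 ∧ (r (b ω))⁻¹ • ω ∈ D0)}, fun g hg ω => ?_⟩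
    have hgN : g ∈ N := by
      by_contra hgN
      have hq : (g : P ⧸ N) ≠ 1 := fun h => hgN ((QuotientGroup.eq_one_iff g).mp h)
      -- count
      have h1 : ∀ ω, b ω = 1 → (ω ∉ D0 ↔ (r (g : P ⧸ N))⁻¹ • g • ω ∈ D0) := by
        intro ω hω
        have h2 := hg ω
        rw [Set.mem_ofPred_eq, Set.mem_ofPred_eq, hb2, hω, mul_one] at h2
        simp only [hq, false_and, ne_eq, not_false_eq_true, true_and, false_or, not_true, or_false] at h2
        exact h2.symm
      have h3 : D0.ncard = ({ω | b ω = 1} \ D0).ncard := by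
        symm
        apply Set.ncard_congr (fun ω _ => (r (g : P ⧸ N))⁻¹ • g • ω)
        · rintro ω ⟨hω, hω1⟩
          exact (h1 ω hω).mp hω1
        · intro ω ω' _ _ h
          exact smul_left_cancel _ (smul_left_cancel _ h)
        · intro ω hω
          refine ⟨g⁻¹ • r (g : P ⧸ N) • ω, ?_, ?_⟩
          · have h4 : b (g⁻¹ • r (g : P ⧸ N) • ω) = 1 := by
              rw [hb2, hb2, hr, hD0s ω hω, mul_one]
              rw [QuotientGroup.mk_inv, inv_mul_cancel]
            refine ⟨h4, (h1 _ h4).mpr ?_⟩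
            rw [smul_inv_smul, inv_smul_smul]
            exact hω
          · show (r (g : P ⧸ N))⁻¹ • g • g⁻¹ • r (g : P ⧸ N) • ω = ω
            rw [smul_inv_smul, inv_smul_smul]
      have h5 : (MulAction.orbit N ω0).ncard = 2 * D0.ncard := by
        have h6 : MulAction.orbit N ω0 = {ω | b ω = 1} := by
          ext ω; exact (hb3 ω).symm
        have h7 := Set.ncard_sdiff_add_ncard_of_subset (s := D0) (t := {ω | b ω = 1})
          (fun ω hω => hD0s ω hω) (Set.toFinite _)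
        rw [h6, two_mul, ← h7, ← h3]
      obtain ⟨k, hk⟩ := (hP.to_subgroup N).card_orbit ω0
      have h7 : (MulAction.orbit N ω0).ncard = p ^ k := hk
      rw [h7] at h5
      have h8 : Odd (p ^ k) := Odd.pow ((Fact.out : p.Prime).odd_of_ne_two hp2)
      rw [h5] at h8
      exact (Nat.not_odd_iff_even.mpr (even_two_mul _)) h8
    have hg1 : (g : P ⧸ N) = 1 := (QuotientGroup.eq_one_iff g).mpr hgN
    -- the block of ω
    set q := b ω with hq
    have hb4 : b ((r q)⁻¹ • ω) = 1 := by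
      rw [hb2, QuotientGroup.mk_inv, hr, ← hq, inv_mul_cancel]
    have hconj : (r q)⁻¹ * g * r q ∈ N := by
      have := hN2.conj_mem g hgN (r q)⁻¹
      simpa using this
    have h9 : ∀ ω', b ω' = 1 → (((r q)⁻¹ * g * r q) • ω' ∈ D0 ↔ ω' ∈ D0) := by
      intro ω' hω'
      have h10 := hg (r q • ω')
      rw [Set.mem_ofPred_eq, Set.mem_ofPred_eq, hb2, hg1, one_mul, hb2, hω', mul_one, hr] at h10
      by_cases hq1 : q = 1
      · simp only [hq1, true_and, ne_eq, not_true, false_and, or_false, not_iff_not] at h10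
        rw [hr1, one_smul] at h10
        rw [hq1, hr1, inv_one, one_mul, mul_one]
        exact h10
      · simp only [hq1, false_and, ne_eq, not_false_eq_true, true_and, false_or, inv_smul_smul] at h10
        rw [mul_smul, mul_smul]
        exact h10
    have h12 := hD0N _ hconj h9 _ hb4
    rw [smul_smul] at h12
    have h13 : (r q)⁻¹ • (g • ω) = (r q)⁻¹ • ω := by
      rw [← h12, smul_smul]
      congr 1
      group
    exact smul_left_cancel _ h13
  · push Not at htr
    obtain ⟨ω1, hω1⟩ := htr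
    obtain ⟨A, hA⟩ : ∃ A : SubMulAction P Ω, ∀ ω, ω ∈ A ↔ ω ∈ MulAction.orbit P ω0 :=
      ⟨{ carrier := MulAction.orbit P ω0, smul_mem' := fun c x hx => orbit_aux c hx },
        fun ω => Iff.rfl⟩
    obtain ⟨B, hB⟩ : ∃ B : SubMulAction P Ω, ∀ ω, ω ∈ B ↔ ω ∉ MulAction.orbit P ω0 :=
      ⟨{ carrier := (MulAction.orbit P ω0)ᶜ, smul_mem' := fun c x hx h => hx (by
          have := orbit_aux c⁻¹ h
          rwa [inv_smul_smul] at this) },
        fun ω => Iff.rfl⟩
    refine good_split A B (fun ω => ?_) (fun ω h1 h2 => ?_) ?_ ?_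
    · rw [hA, hB]; exact em _
    · exact (hB ω).mp h2 ((hA ω).mp h1)
    · refine ih (Nat.card A) ?_ P A hP rfl
      rw [← hn]
      exact Finite.card_subtype_lt (p := fun ω => ω ∈ A) (x := ω1) (fun h => hω1 ((hA ω1).mp h))
    · refine ih (Nat.card B) ?_ P B hP rfl
      rw [← hn]
      exact Finite.card_subtype_lt (p := fun ω => ω ∈ B) (x := ω0)
        (fun h => (hB ω0).mp h (MulAction.mem_orbit_self ω0))

end Cfsg.Agent.BSV
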