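import Cfsg.Agent.BSV.Act
import Cfsg.Agent.BSV.Pow
import Cfsg.Agent.BSV.Dec
import Cfsg.Agent.H64.SympE
import Cfsg.Agent.S0126

/-!
# A vector fixed by no conjugate of a given p-element (helper78)

`exists_vec`: `p` odd, `H` irreducible on the finite abelian group `V` without `p`-torsion, `P` a normal
`p`-subgroup of `H` acting faithfully, `1 ≠ a ∈ P`; then some `v ∈ V` is fixed by no conjugate of `a`.
-/

set_option autoImplicit false
set_option linter.unusedSectionVars false

namespace Cfsg.Agent.BSV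

open scoped Pointwise commutatorElement
open Finset

universe u v

/-- a p-group of symplectic type, p odd, has class at most two. -/
theorem class_two {p : ℕ} [hp : Fact p.Prime] (hp2 : p ≠ 2) {Q : Type u} [Group Q] [Finite Q] (hQ : IsPGroup p Q)
    (hsymp : ∀ A : Subgroup Q, A.Characteristic → IsMulCommutative A → IsCyclic A) (a b : Q) :
    ⁅a, b⁆ ∈ Subgroup.center Q := by
  obtain ⟨E, R, hER, htop, hE, hR⟩ := Cfsg.Agent.H64.Symp.main hQ hsymp
  have hRc : IsCyclic R := by
    rcases hR with h | ⟨h, -⟩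
    · exact h
    · exact absurd h hp2
  -- an element commuting with E and R is central
  have hcen : ∀ c : Q, (∀ e ∈ E, c * e = e * c) → (∀ r ∈ R, c * r = r * c) → c ∈ Subgroup.center Q := by
    intro c h1 h2
    have h3 : E ⊔ R ≤ Subgroup.centralizer {c} := by
      refine sup_le (fun e he => ?_) (fun r hr => ?_)
      · rw [Subgroup.mem_centralizer_singleton_iff]; exact (h1 e he).symm
      · rw [Subgroup.mem_centralizer_singleton_iff]; exact (h2 r hr).symm
    rw [htop] at h3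
    rw [Subgroup.mem_center_iff]
    intro g
    have := h3 (Subgroup.mem_top g)
    rw [Subgroup.mem_centralizer_singleton_iff] at this
    exact this
  have hEE : ∀ e ∈ E, ∀ e' ∈ E, ⁅e, e'⁆ ∈ Subgroup.center Q := by
    intro e he e' he'
    rcases hE with rfl | hE
    · rw [Subgroup.mem_bot] at he he'
      rw [he, he']; simp
    · have h1 : ⁅(⟨e, he⟩ : E), ⟨e', he'⟩⁆ ∈ Subgroup.center E := by
        rw [← hE.1.2.2]
        exact Subgroup.commutator_mem_commutator (Subgroup.mem_top _) (Subgroup.mem_top _)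
      have h2 : ((⁅(⟨e, he⟩ : E), ⟨e', he'⟩⁆ : E) : Q) = ⁅e, e'⁆ := rfl
      refine hcen _ (fun x hx => ?_) (fun r hr => ?_)
      · rw [Subgroup.mem_center_iff] at h1
        have h3 := congrArg Subtype.val (h1 ⟨x, hx⟩)
        exact h3.symm
      · rw [← h2]
        exact hER _ (Subtype.property _) r hr
  have hRR : ∀ r ∈ R, ∀ r' ∈ R, r * r' = r' * r := by
    intro r hr r' hr'
    have := hRc
    have h1 := IsCyclic.isMulCommutative (α := R)
    exact congrArg Subtype.val (h1.is_comm.comm ⟨r, hr⟩ ⟨r', hr'⟩)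
  -- second centre as a subgroup, one variable at a time
  let Z := Subgroup.center Q
  have key : ∀ x : Q, (∀ y ∈ E, ⁅x, y⁆ ∈ Z) → (∀ y ∈ R, ⁅x, y⁆ ∈ Z) → ∀ y : Q, ⁅x, y⁆ ∈ Z := by
    intro x h1 h2 y
    have h3 : E ⊔ R ≤ (Subgroup.centralizer {(QuotientGroup.mk' Z x)}).comap (QuotientGroup.mk' Z) := by
      have h4 : ∀ y : Q, ⁅x, y⁆ ∈ Z → y ∈ (Subgroup.centralizer {(QuotientGroup.mk' Z x)}).comap (QuotientGroup.mk' Z) := by
        intro y hy
        rw [Subgroup.mem_comap, Subgroup.mem_centralizer_singleton_iff]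
        have h5 : QuotientGroup.mk' Z ⁅x, y⁆ = 1 := (QuotientGroup.eq_one_iff _).mpr hy
        rw [map_commutatorElement, commutatorElement_eq_one_iff_mul_comm] at h5
        exact h5.symm
      exact sup_le (fun y hy => h4 y (h1 y hy)) (fun y hy => h4 y (h2 y hy))
    rw [htop] at h3
    have h6 := h3 (Subgroup.mem_top y)
    rw [Subgroup.mem_comap, Subgroup.mem_centralizer_singleton_iff] at h6
    have h7 : QuotientGroup.mk' Z ⁅x, y⁆ = 1 := by
      rw [map_commutatorElement, commutatorElement_eq_one_iff_mul_comm]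
      exact h6.symm
    exact (QuotientGroup.eq_one_iff _).mp h7
  have hone : ∀ x y : Q, x * y = y * x → ⁅x, y⁆ ∈ Z := by
    intro x y h
    rw [commutatorElement_eq_one_iff_mul_comm.mpr h]
    exact Z.one_mem
  have hsymm : ∀ x y : Q, ⁅x, y⁆ ∈ Z → ⁅y, x⁆ ∈ Z := by
    intro x y h
    rw [← commutatorElement_inv]
    exact Z.inv_mem h
  have hE1 : ∀ e ∈ E, ∀ y : Q, ⁅e, y⁆ ∈ Z := fun e he =>
    key e (fun y hy => hEE e he y hy) (fun y hy => hone _ _ (hER e he y hy))
  have hR1 : ∀ r ∈ R, ∀ y : Q, ⁅r, y⁆ ∈ Z := fun r hr =>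
    key r (fun y hy => hone _ _ (hER y hy r hr).symm) (fun y hy => hone _ _ (hRR r hr y hy))
  exact key a (fun y hy => hsymm _ _ (hE1 y hy a)) (fun y hy => hsymm _ _ (hR1 y hy a)) b

/-- commutative groups of semiregular automorphisms are cyclic (p odd). -/
theorem cyclic_of_semiregular {p : ℕ} [hp : Fact p.Prime] (hp2 : p ≠ 2) {A : Type u} {W : Type v} [Group A] [Finite A]
    [AddCommGroup W] [DistribMulAction A W] (hA : IsPGroup p A) (hcomm : ∀ a b : A, a * b = b * a)
    (htor : ∀ w : W, p • w = 0 → w = 0) (hW : ∃ w : W, w ≠ 0)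
    (hsr : ∀ a : A, ∀ w : W, w ≠ 0 → a • w = w → a = 1) : IsCyclic A := by
  by_contra hnc
  obtain ⟨E, -, ⟨hE1, hE2⟩, hE3⟩ := Cfsg.Agent.S0126.result hp2 hA hnc
  obtain ⟨w, hw⟩ := hW
  have hcen : ∀ a : A, a ∈ Subgroup.center A := fun a => Subgroup.mem_center_iff.mpr fun g => hcomm g a
  have h1 : ∃ z ∈ E, z ≠ 1 := by
    by_contra hcon
    push Not at hcon
    have h2 : E = ⊥ := (Subgroup.eq_bot_iff_forall E).mpr hcon
    rw [h2, Subgroup.card_bot] at hE3
    have := hp.out.one_lt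
    have h3 : 1 < p ^ 2 := Nat.one_lt_pow (by norm_num) this
    omega
  obtain ⟨z, hzE, hz1⟩ := h1
  have h2 : E ≤ Subgroup.zpowers z := by
    intro c hc
    obtain ⟨i, hi⟩ := rank_one (Q := A) (W := W) hp.out ⟨w, fun h => hw (htor w h)⟩
      (fun a _ w hw h => hsr a w hw h) (hcen z) (hcen c) hz1 (hE2 z hzE) (hE2 c hc)
    rw [hi]
    exact Subgroup.pow_mem _ (Subgroup.mem_zpowers z) i
  have h3 := Subgroup.card_le_of_le h2
  rw [hE3, Nat.card_zpowers] at h3
  have h4 : orderOf z ∣ p := orderOf_dvd_of_pow_eq_one (hE2 z hzE)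
  have h5 := Nat.le_of_dvd hp.out.pos h4
  have h6 : p < p ^ 2 := by
    have := hp.out.one_lt
    nlinarith
  omega

/-- conjugation by an element normalizing a subgroup. -/
def conjEquiv {G : Type*} [Group G] (Q : Subgroup G) (g : G) (h1 : ∀ q ∈ Q, g * q * g⁻¹ ∈ Q)
    (h2 : ∀ q ∈ Q, g⁻¹ * q * g ∈ Q) : Q ≃* Q where
  toFun q := ⟨g * q * g⁻¹, h1 q q.2⟩
  invFun q := ⟨g⁻¹ * q * g, h2 q q.2⟩
  left_inv q := Subtype.ext (by simp only; group)
  right_inv q := Subtype.ext (by simp only; group)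
  map_mul' a b := Subtype.ext (by simp only [Subgroup.coe_mul]; group)

section

variable {p : ℕ} [hp : Fact p.Prime] {H : Type v} {V : Type u} [Group H] [Finite H] [AddCommGroup V] [Finite V]
  [DistribMulAction H V]

/-- a vector of the minimal block, regular for a normal p-subgroup fixing all blocks. -/
theorem exists_block_vec (hp2 : p ≠ 2) {W : AddSubgroup V} (hW : MinBlock H W) (htor : ∀ v : V, p • v = 0 → v = 0)
    {B : Subgroup H} (hB : IsPGroup p B) (hBn : ∀ h : H, ∀ b ∈ B, h * b * h⁻¹ ∈ B) (hBW : ∀ b ∈ B, b • W = W) :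
    ∃ w ∈ W, ∀ b ∈ B, b • w = w → ∀ u ∈ W, b • u = u := by
  have hmemW : ∀ d ∈ B, ∀ w ∈ W, d • w ∈ W := by
    intro d hd w hw
    rw [← hBW d hd]
    exact AddSubgroup.smul_mem_pointwise_smul w d W hw
  let _ := restr B W hmemW
  let φ : B →* Equiv.Perm W := MulAction.toPermHom B W
  have hφ1 : ∀ m : B, φ m = 1 ↔ ∀ u ∈ W, (m : H) • u = u := by
    intro m
    constructor
    · intro h u hu
      have h1 : φ m ⟨u, hu⟩ = m • ⟨u, hu⟩ := rfl
      rw [h] at h1
      exact (congrArg (Subtype.val) h1).symm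
    · intro h
      ext u
      exact h u u.2
  let _ : DistribMulAction φ.range W :=
    { smul := fun q u => (q : Equiv.Perm W) u
      one_smul := fun _ => rfl
      mul_smul := fun _ _ _ => rfl
      smul_zero := by rintro ⟨_, m, rfl⟩; exact smul_zero m
      smul_add := by rintro ⟨_, m, rfl⟩ a b; exact smul_add m a b }
  have hfaith : FaithfulSMul φ.range W := ⟨fun {a b} h => Subtype.ext (Equiv.ext h)⟩
  have hfin : Finite φ.range := Finite.of_surjective φ.rangeRestrict φ.rangeRestrict_surjective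
  have hQ : IsPGroup p φ.range := hB.of_surjective φ.rangeRestrict φ.rangeRestrict_surjective
  have htorW : ∀ w : W, p • w = 0 → w = 0 := fun w hw => Subtype.ext (htor w (congrArg Subtype.val hw))
  have hW0 : ∃ w : W, w ≠ 0 := by
    by_contra hcon
    push Not at hcon
    apply hW.ne_bot
    rw [AddSubgroup.eq_bot_iff_forall]
    intro w hw
    exact congrArg Subtype.val (hcon ⟨w, hw⟩)
  -- characteristic commutative subgroups act semiregularly
  have hsr : ∀ A : Subgroup φ.range, A.Characteristic → (∀ a ∈ A, ∀ b ∈ A, a * b = b * a) →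
      ∀ a ∈ A, ∀ w : W, w ≠ 0 → a • w = w → a = 1 := by
    rintro A hA hAc ⟨_, m, rfl⟩ haA w hw0 haw
    let D : Subgroup H := (A.comap φ.rangeRestrict).map B.subtype
    have hDB : D ≤ B := by
      rintro _ ⟨b, -, rfl⟩
      exact b.2
    have h1 := semiregular hW htor (D := D) (hB.to_le hDB) (fun d hd => hBW d (hDB hd)) (by
      rintro h hh _ ⟨b, hb, rfl⟩
      refine ⟨⟨h * b * h⁻¹, hBn h b b.2⟩, ?_, rfl⟩
      -- the conjugation automorphism
      have hh' : h⁻¹ • W = W := by rw [inv_smul_eq_iff]; exact hh.symm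
      have hW' : ∀ u : V, u ∈ W ↔ h • u ∈ W := by
        intro u
        constructor
        · intro hu
          rw [← hh]; exact AddSubgroup.smul_mem_pointwise_smul u h W hu
        · intro hu
          rw [← hh, mem_smul_iff, inv_smul_smul] at hu
          exact hu
      let ρ : Equiv.Perm W :=
        { toFun := fun u => ⟨h • (u : V), (hW' u).mp u.2⟩
          invFun := fun u => ⟨h⁻¹ • (u : V), by rw [hW', smul_inv_smul]; exact u.2⟩
          left_inv := fun u => Subtype.ext (inv_smul_smul h (u : V))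
          right_inv := fun u => Subtype.ext (smul_inv_smul h (u : V)) }
      have hρ : ∀ (k : H) (hk : ∀ u : V, u ∈ W → k • u ∈ W), True := fun _ _ => trivial
      have hc1 : ∀ b : B, ρ * φ b * ρ⁻¹ = φ ⟨h * b * h⁻¹, hBn h b b.2⟩ := by
        intro b
        ext u
        show h • (b : H) • h⁻¹ • (u : V) = (h * b * h⁻¹) • (u : V)
        rw [mul_smul, mul_smul]
      have hc2 : ∀ b : B, ρ⁻¹ * φ b * ρ = φ ⟨h⁻¹ * b * h, by simpa using hBn h⁻¹ b b.2⟩ := by
        intro b
        ext u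
        show h⁻¹ • (b : H) • h • (u : V) = (h⁻¹ * b * h) • (u : V)
        rw [mul_smul, mul_smul]
      let α := conjEquiv φ.range ρ (by rintro _ ⟨b, rfl⟩; rw [hc1]; exact ⟨_, rfl⟩)
        (by rintro _ ⟨b, rfl⟩; rw [hc2]; exact ⟨_, rfl⟩)
      have h2 := hA.fixed α
      have h3 : α (φ.rangeRestrict b) ∈ A := by
        have h4 : φ.rangeRestrict b ∈ A := hb
        rw [← h2] at h4
        exact h4
      have h5 : α (φ.rangeRestrict b) = φ.rangeRestrict ⟨h * b * h⁻¹, hBn h b b.2⟩ := Subtype.ext (hc1 b)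
      rw [h5] at h3
      exact h3) (by
      rintro _ ⟨b, hb, rfl⟩ _ ⟨c, hc, rfl⟩ u hu
      have h2 := hAc _ hb _ hc
      rw [← map_mul, ← map_mul] at h2
      have h3 := congrArg (fun q : φ.range => (q : Equiv.Perm W) ⟨u, hu⟩) h2
      have h4 := congrArg Subtype.val h3
      have h5 : ((b * c : B) : H) • u = ((c * b : B) : H) • u := h4
      rw [Subgroup.coe_mul, Subgroup.coe_mul, mul_smul, mul_smul] at h5
      exact h5) (d := m) ⟨m, haA, rfl⟩ w.2 (fun h => hw0 (Subtype.ext h)) (congrArg Subtype.val haw)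
    apply Subtype.ext
    exact (hφ1 m).mpr h1
  have hsymp : ∀ A : Subgroup φ.range, A.Characteristic → IsMulCommutative A → IsCyclic A := by
    intro A hA hAc
    have hcomm : ∀ a ∈ A, ∀ b ∈ A, a * b = b * a := fun a ha b hb =>
      congrArg Subtype.val (hAc.is_comm.comm (⟨a, ha⟩ : A) ⟨b, hb⟩)
    refine cyclic_of_semiregular (A := A) (W := W) hp2 (hQ.to_subgroup A) (fun a b => Subtype.ext (hcomm a a.2 b b.2))
      htorW hW0 (fun a w hw h => Subtype.ext (hsr A hA hcomm a a.2 w hw h))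
  have hcl := class_two hp2 hQ hsymp
  obtain ⟨w0, hw0⟩ := claim hp.out hp2 _ φ.range W rfl hQ hcl (hsr (Subgroup.center φ.range) inferInstance (by
    intro a ha b hb
    exact (Subgroup.mem_center_iff.mp ha b).symm)) htorW hW0
  refine ⟨w0, w0.2, fun b hb hbw => ?_⟩
  have h1 := hw0 ⟨φ ⟨b, hb⟩, ⟨b, hb⟩, rfl⟩ (Subtype.ext hbw)
  exact (hφ1 ⟨b, hb⟩).mp (congrArg Subtype.val h1)

theorem exists_vec (hp2 : p ≠ 2) (hirr : ∀ U : AddSubgroup V, (∀ h : H, h • U = U) → U = ⊥ ∨ U = ⊤)
    (htor : ∀ v : V, p • v = 0 → v = 0) {P : Subgroup H} (hP : IsPGroup p P)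
    (hPn : ∀ h : H, ∀ b ∈ P, h * b * h⁻¹ ∈ P) (hPf : ∀ x ∈ P, (∀ v : V, x • v = v) → x = 1) {a : H} (ha : a ∈ P)
    (ha1 : a ≠ 1) : ∃ v : V, ∀ h : H, (h * a * h⁻¹) • v ≠ v := by
  classical
  have hnt : Nontrivial V := by
    by_contra h
    rw [not_nontrivial_iff_subsingleton] at h
    exact ha1 (hPf a ha fun v => Subsingleton.elim _ _)
  obtain ⟨W, hW⟩ := exists_minBlock H (V := V)
  -- the blocks generate
  have hgen : ∀ U : AddSubgroup V, (∀ W' ∈ MulAction.orbit H W, W' ≤ U) → U = ⊤ := by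
    intro U hU
    have h1 : ∀ h : H, h • sSup (MulAction.orbit H W) ≤ sSup (MulAction.orbit H W) := by
      intro h
      have h2 : sSup (MulAction.orbit H W) ≤ h⁻¹ • sSup (MulAction.orbit H W) := by
        refine sSup_le fun W' hW' v hv => ?_
        rw [mem_smul_iff, inv_inv]
        have h3 : h • W' ∈ MulAction.orbit H W := orbit_aux h hW'
        exact le_sSup h3 (AddSubgroup.smul_mem_pointwise_smul v h W' hv)
      intro v hv
      rw [mem_smul_iff] at hv
      have h3 := h2 hv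
      rw [mem_smul_iff, inv_inv, smul_inv_smul] at h3
      exact h3
    have h2 : ∀ h : H, h • sSup (MulAction.orbit H W) = sSup (MulAction.orbit H W) := by
      intro h
      refine le_antisymm (h1 h) ?_
      intro v hv
      rw [mem_smul_iff]
      exact h1 h⁻¹ (AddSubgroup.smul_mem_pointwise_smul v h⁻¹ _ hv)
    rcases hirr _ h2 with h3 | h3
    · exfalso
      apply hW.ne_bot
      rw [eq_bot_iff, ← h3]
      exact le_sSup (MulAction.mem_orbit_self W)
    · rw [eq_top_iff, ← h3]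
      exact sSup_le hU
  have hfinO : (MulAction.orbit H W).Finite := Set.toFinite _
  obtain ⟨O, hO⟩ : ∃ O : Finset (AddSubgroup V), ∀ X, X ∈ O ↔ X ∈ MulAction.orbit H W :=
    ⟨hfinO.toFinset, fun X => hfinO.mem_toFinset⟩
  choose! k hk using (show ∀ X, X ∈ MulAction.orbit H W → ∃ h : H, h • W = X from fun X hX => hX)
  have hstO : ∀ (h : H) (X : AddSubgroup V), X ∈ O → h • X ∈ O := by
    intro h X hX
    rw [hO] at hX ⊢
    exact orbit_aux h hX
  -- the kernel on the blocks
  obtain ⟨B, hB⟩ : ∃ B : Subgroup H, ∀ g, g ∈ B ↔ g ∈ P ∧ ∀ X ∈ MulAction.orbit H W, g • X = X := by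
    refine ⟨{ carrier := {g | g ∈ P ∧ ∀ X ∈ MulAction.orbit H W, g • X = X}
              one_mem' := ⟨P.one_mem, fun X _ => one_smul _ X⟩
              mul_mem' := fun {a b} ha hb => ⟨P.mul_mem ha.1 hb.1, fun X hX => by
                rw [mul_smul, hb.2 X hX, ha.2 X hX]⟩
              inv_mem' := fun {a} ha => ⟨P.inv_mem ha.1, fun X hX => by
                rw [inv_smul_eq_iff, ha.2 X hX]⟩ }, fun g => Iff.rfl⟩
  have hBn : ∀ h : H, ∀ b ∈ B, h * b * h⁻¹ ∈ B := by
    intro h b hb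
    rw [hB] at hb ⊢
    refine ⟨hPn h b hb.1, fun X hX => ?_⟩
    rw [mul_smul, mul_smul, hb.2 _ (orbit_aux h⁻¹ hX), smul_inv_smul]
  have hBP : B ≤ P := fun b hb => ((hB b).mp hb).1
  -- comparing vectors given by blocks
  have huniq : ∀ (F : AddSubgroup V → V), (∀ X ∈ O, F X ∈ X) → ∀ x : H, x • ∑ X ∈ O, F X = ∑ X ∈ O, F X →
      ∀ X ∈ O, x • F (x⁻¹ • X) = F X := by
    intro F hF x hx X hX
    have h1 : x • ∑ X ∈ O, F X = ∑ X ∈ O, x • F (x⁻¹ • X) := by
      rw [Finset.smul_sum]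
      refine Finset.sum_bij (fun X _ => x • X) (fun X hX => hstO x X hX) (fun X _ Y _ h => smul_left_cancel x h)
        (fun Y hY => ⟨x⁻¹ • Y, hstO _ _ hY, smul_inv_smul x Y⟩) (fun X _ => ?_)
      rw [inv_smul_smul]
    have h2 : ∑ X ∈ O, (x • F (x⁻¹ • X) - F X) = 0 := by
      rw [Finset.sum_sub_distrib, ← h1, hx, sub_self]
    have h3 := hW.ind O (fun X hX => (hO X).mp hX) _ (fun X hX => by
      refine X.sub_mem ?_ (hF X hX)
      have h4 := hF _ (hstO x⁻¹ X hX)
      have h5 := AddSubgroup.smul_mem_pointwise_smul _ x _ h4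
      rwa [smul_inv_smul] at h5) h2 X hX
    exact sub_eq_zero.mp h3
  by_cases haB : a ∈ B
  · obtain ⟨w, hwW, hw⟩ := exists_block_vec hp2 hW htor (hP.to_le hBP) hBn
      (fun b hb => ((hB b).mp hb).2 W (MulAction.mem_orbit_self W))
    refine ⟨∑ X ∈ O, k X • w, fun h hh => ha1 ?_⟩
    have hxB := hBn h a haB
    set x := h * a * h⁻¹ with hx
    have h1 := huniq (fun X => k X • w) (fun X hX => by
      have h2 := AddSubgroup.smul_mem_pointwise_smul w (k X) W hwW
      rwa [hk X ((hO X).mp hX)] at h2) x hh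
    have h2 : ∀ X ∈ MulAction.orbit H W, ∀ v ∈ X, x • v = v := by
      intro X hX v hv
      have h3 := h1 X ((hO X).mpr hX)
      have h4 : x⁻¹ • X = X := by
        rw [inv_smul_eq_iff]; exact (((hB x).mp hxB).2 X hX).symm
      simp only [h4] at h3
      have h5 : ((k X)⁻¹ * x * k X) • w = w := by
        rw [mul_smul, mul_smul, h3, inv_smul_smul]
      have h6 := hw _ (by simpa using hBn (k X)⁻¹ x hxB) h5
      have h7 : (k X)⁻¹ • v ∈ W := by
        rw [← mem_smul_iff, hk X hX]; exact hv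
      have h8 := h6 _ h7
      rw [mul_smul, mul_smul, smul_inv_smul] at h8
      exact smul_left_cancel _ h8
    have h3 : ∀ v : V, x • v = v := by
      obtain ⟨U, hU⟩ : ∃ U : AddSubgroup V, ∀ v, v ∈ U ↔ x • v = v :=
        ⟨{ carrier := {v | x • v = v}
           zero_mem' := smul_zero x
           add_mem' := fun {a b} ha hb => by
             show x • (a + b) = a + b
             rw [smul_add, ha, hb]
           neg_mem' := fun {a} ha => by
             show x • (-a) = -a
             rw [smul_neg, ha] }, fun v => Iff.rfl⟩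
      have h4 := hgen U (fun X hX v hv => (hU v).mpr (h2 X hX v hv))
      intro v
      rw [← hU, h4]
      exact AddSubgroup.mem_top v
    have h4 := hPf x (hBP hxB) h3
    have h5 : a = h⁻¹ * x * h := by rw [hx]; group
    rw [h5, h4]; group
  · obtain ⟨Δ, hΔ⟩ := good hp2 _ P (MulAction.orbit H W) hP rfl
    obtain ⟨w, hwW, hw0⟩ : ∃ w ∈ W, w ≠ 0 := by
      by_contra hcon
      push Not at hcon
      exact hW.ne_bot ((AddSubgroup.eq_bot_iff_forall W).mpr hcon)
    refine ⟨∑ X ∈ O, if ∃ hX : X ∈ MulAction.orbit H W, (⟨X, hX⟩ : MulAction.orbit H W) ∈ Δ then k X • w else 0,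
      fun h hh => haB ?_⟩
    have hxP := hPn h a ha
    set x := h * a * h⁻¹ with hx
    have h1 := huniq _ (fun X hX => by
      split_ifs
      · have h2 := AddSubgroup.smul_mem_pointwise_smul w (k X) W hwW
        rwa [hk X ((hO X).mp hX)] at h2
      · exact X.zero_mem) x hh
    have h2 : ∀ ω : MulAction.orbit H W, (⟨x, hxP⟩ : P) • ω ∈ Δ ↔ ω ∈ Δ := by
      intro ω
      have h3 := h1 (x • (ω : AddSubgroup V)) (hstO x _ ((hO _).mpr ω.2))
      rw [inv_smul_smul] at h3
      have h4 : (∃ hX : (ω : AddSubgroup V) ∈ MulAction.orbit H W, (⟨ω, hX⟩ : MulAction.orbit H W) ∈ Δ) ↔ ω ∈ Δ :=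
        ⟨fun ⟨_, h⟩ => h, fun h => ⟨ω.2, h⟩⟩
      have h5 : (∃ hX : x • (ω : AddSubgroup V) ∈ MulAction.orbit H W,
          (⟨x • (ω : AddSubgroup V), hX⟩ : MulAction.orbit H W) ∈ Δ) ↔ (⟨x, hxP⟩ : P) • ω ∈ Δ :=
        ⟨fun ⟨_, h⟩ => h, fun h => ⟨orbit_aux x ω.2, h⟩⟩
      have hkw : ∀ X, k X • w ≠ 0 := fun X hX => hw0 ((smul_eq_zero_iff_eq _).mp hX)
      by_cases h6 : ω ∈ Δ
      · simp only [h6, iff_true]
        by_contra h7
        rw [if_pos (h4.mpr h6), if_neg (fun h => h7 (h5.mp h))] at h3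
        exact hkw _ ((smul_eq_zero_iff_eq _).mp h3)
      · simp only [h6, iff_false]
        intro h7
        rw [if_neg (fun h => h6 (h4.mp h)), if_pos (h5.mpr h7), smul_zero] at h3
        exact hkw _ h3.symm
    have h3 := hΔ ⟨x, hxP⟩ h2
    have hxB : x ∈ B := by
      rw [hB]
      refine ⟨hxP, fun X hX => ?_⟩
      exact congrArg Subtype.val (h3 ⟨X, hX⟩)
    have h4 := hBn h⁻¹ x hxB
    have h5 : h⁻¹ * x * h⁻¹⁻¹ = a := by rw [hx]; group
    rwa [h5] at h4

end

end Cfsg.Agent.BSV
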